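import Cfsg.Agent.Lib.SLTwoPres.Main

/-!
# Nine relations for `SL₂(q)` and `PSL₂(q)`, five in characteristic two
-/

set_option autoImplicit false

namespace Cfsg.Agent.Lib.SLTwoPres.Final

open Polynomial
open Cfsg.Agent.Lib.SLTwoPres.Borel Cfsg.Agent.Lib.SLTwoPres.Core Cfsg.Agent.Lib.SLTwoPres.Main

universe u

variable {F : Type u} [Field F] [Fintype F]

theorem exists_generator (F : Type u) [Field F] [Fintype F] : ∃ ω : Fˣ, orderOf ω = Fintype.card F - 1 := by
  classical
  obtain ⟨ω, hω⟩ := IsCyclic.exists_generator (α := Fˣ)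
  exact ⟨ω, by rw [orderOf_eq_card_of_forall_mem_zpowers hω, Nat.card_eq_fintype_card, Fintype.card_units]⟩

theorem inv_of_sq {G : Type*} [Group G] (g : G) (h : g ^ 2 = 1) : g⁻¹ = g :=
  inv_eq_of_mul_eq_one_left (by rw [← pow_two, h])

theorem conj_pow_act {G : Type*} [Group G] {x : F → G} {h : G} {ν : F} (hact : ∀ c, h * x c * h⁻¹ = x (ν * c)) :
    ∀ (m : ℕ) c, h ^ m * x c * (h ^ m)⁻¹ = x (ν ^ m * c) := by
  intro m c
  induction m with
  | zero => simp
  | succ m ih =>
    rw [pow_succ', show h * h ^ m * x c * (h * h ^ m)⁻¹ = h * (h ^ m * x c * (h ^ m)⁻¹) * h⁻¹ by group, ih, hact]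
    congr 1
    ring

/-- Odd `q`: nine relations, for the quotient by a subgroup of the centre. -/
theorem odd_case {p : ℕ} [Fact p.Prime] [Algebra (ZMod p) F] (hp2 : p ≠ 2) (k : ℕ) (hk : Fintype.card F = p ^ k)
    {Q : Type*} [Group Q] (π : Matrix.SpecialLinearGroup (Fin 2) F →* Q) (hπ : Function.Surjective π)
    (hcase : Function.Injective π ∨
      (π.ker ≤ Subgroup.center (Matrix.SpecialLinearGroup (Fin 2) F) ∧ π (T' ^ 2) = 1)) :
    ∃ rels : Finset (FreeGroup (Fin 3)), rels.card ≤ 9 ∧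
      Nonempty (PresentedGroup (↑rels : Set (FreeGroup (Fin 3))) ≃* Q) := by
  classical
  obtain ⟨ω, hω⟩ := exists_generator F
  have hgen := card_eq ω hω
  obtain ⟨i, B, hB, hsurj, hBok, hBread⟩ := borel_rels (p := p) hp2 k hk ω hω
  obtain ⟨P, hP⟩ := hsurj (ω : F)
  obtain ⟨P', hP'⟩ := hsurj ((ω⁻¹ : Fˣ) : F)
  set q := Fintype.card F with hq
  have hqodd : Odd q := by rw [hk]; exact ((Fact.out : p.Prime).odd_of_ne_two hp2).pow
  have hq2 : 2 ≤ q := Fintype.one_lt_card
  have hhalf : ω ^ ((q - 1) / 2) = -1 := by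
    have h2 : (q - 1) / 2 * 2 = q - 1 := by obtain ⟨m, hm⟩ := hqodd; omega
    have hsq : ((ω ^ ((q - 1) / 2) : Fˣ) : F) ^ 2 = 1 := by
      rw [← Units.val_pow_eq_pow_val, ← pow_mul, h2, ← hω, pow_orderOf_eq_one, Units.val_one]
    rcases sq_eq_one_iff.1 hsq with h | h
    · exfalso
      have h1 : ω ^ ((q - 1) / 2) = 1 := Units.ext h
      have := Nat.le_of_dvd (by obtain ⟨m, hm⟩ := hqodd; omega) (orderOf_dvd_of_pow_eq_one h1)
      omega
    · exact Units.ext (by rw [h]; rfl)
  let e : ℕ := if Function.Injective π then (q - 1) / 2 else 0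
  refine ⟨B ∪ {rWeyl, rSq e, rOne, rGen i P P'},
    (Finset.card_union_le _ _).trans (le_trans (Nat.add_le_add hB Finset.card_le_four) le_rfl), ?_⟩
  refine presents π hπ ω _ ?_ hgen i hsurj ?_
  · intro r hr
    simp only [Finset.mem_union, Finset.mem_insert, Finset.mem_singleton] at hr
    rcases hr with hr | rfl | rfl | rfl | rfl
    · exact lift_comp π ω r (hBok r hr)
    · exact lift_comp π ω _ (ok_weyl ω)
    · by_cases hi : Function.Injective π
      · simp only [e, if_pos hi]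
        exact lift_comp π ω _ (ok_sq ω _ hhalf)
      · simp only [e, if_neg hi]
        rw [rSq, pow_zero, inv_one, mul_one, map_pow, T, FreeGroup.lift_apply_of]
        show π T' ^ 2 = 1
        rw [← map_pow]
        exact ((hcase.resolve_left hi)).2
    · exact lift_comp π ω _ (ok_one ω)
    · exact lift_comp π ω _ (ok_gen ω i P P' hP hP')
  · intro u h t hr
    obtain ⟨x, hadd, hact, hxP, hx1⟩ := hBread u h t fun r hr' => hr r (Finset.mem_union_left _ hr')
    obtain ⟨-, -, -, -, -, -, r6, r7, r8, r9⟩ := read (p := p) u h t i 0 0 e P P'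
    have hth := r6 (hr _ (by simp))
    have ht2 := r7 (hr _ (by simp))
    have h8 := r8 (hr _ (by simp))
    have h9 := r9 (hr _ (by simp))
    have hz : ∀ c, Commute (t ^ 2) (x c) := fun c => by
      rw [ht2]
      have h1 := conj_pow_act hact e c
      have h2 : ((ω : F) ^ 2) ^ e = 1 := by
        by_cases hi : Function.Injective π
        · simp only [e, if_pos hi]
          rw [← pow_mul, mul_comm, pow_mul, ← Units.val_pow_eq_pow_val, hhalf]
          simp
        · simp [e, if_neg hi]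
      rw [h2, one_mul] at h1
      exact mul_inv_eq_iff_eq_mul.1 h1
    refine ⟨fun z hz' => ?_, x, hadd, hact, hxP, hx1, hth, hz, ?_, ?_⟩
    · rcases hcase with hi | ⟨hc, -⟩
      · exact Or.inl (hi (by rw [MonoidHom.mem_ker.1 hz', map_one]))
      · rcases center_eq_sq (hc hz') with rfl | rfl
        · exact Or.inl rfl
        · by_cases hi : Function.Injective π
          · exact Or.inl (hi (by rw [MonoidHom.mem_ker.1 hz', map_one]))
          · refine Or.inr ⟨rfl, ?_⟩
            rw [ht2]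
            simp [e, if_neg hi]
    · rw [hx1]; exact h8
    · have e1 := hxP P
      rw [hP] at e1
      have e2 := hxP P'
      rw [hP'] at e2
      rw [e1, e2]
      exact h9

/-- Even `q`: five relations. -/
theorem even_case [Fact (Nat.Prime 2)] [Algebra (ZMod 2) F] (k : ℕ) (hk : Fintype.card F = 2 ^ k)
    {Q : Type*} [Group Q] (π : Matrix.SpecialLinearGroup (Fin 2) F →* Q) (hπ : Function.Surjective π)
    (hker : π.ker ≤ Subgroup.center (Matrix.SpecialLinearGroup (Fin 2) F)) :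
    ∃ rels : Finset (FreeGroup (Fin 3)), rels.card ≤ 5 ∧
      Nonempty (PresentedGroup (↑rels : Set (FreeGroup (Fin 3))) ≃* Q) := by
  classical
  haveI : CharP F 2 := charP_of_injective_algebraMap (algebraMap (ZMod 2) F).injective 2
  obtain ⟨ω, hω⟩ := exists_generator F
  have hgen := card_eq ω hω
  set q := Fintype.card F with hq
  have hq2 : 2 ≤ q := Fintype.one_lt_card
  have hneg : (-1 : Fˣ) = 1 := Units.ext (by
    rw [Units.val_neg, Units.val_one]
    exact CharTwo.neg_eq 1)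
  have hT : (T' : Matrix.SpecialLinearGroup (Fin 2) F) ^ 2 = 1 := by rw [T'_sq, hneg, H'_one]
  have hkerbot : ∀ z ∈ π.ker, z = 1 := fun z hz => by
    rcases center_eq_sq (hker hz) with h | h
    · exact h
    · rw [h, hT]
  have hsq0 : ω ^ 0 = -1 := by rw [pow_zero, hneg]
  rcases Nat.eq_or_lt_of_le hq2 with h2 | h2
  · -- two elements
    have hω1 : ω = 1 := orderOf_eq_one_iff.1 (by rw [hω, ← h2])
    have hωF : (ω : F) = 1 := by rw [hω1]; rfl
    have hsurj : ∀ c : F, ∃ P : (ZMod 2)[X], aeval ((ω : F) ^ (2 * 0)) P = c := by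
      intro c
      have hb : Function.Bijective (algebraMap (ZMod 2) F) := (Fintype.bijective_iff_injective_and_card _).2
        ⟨(algebraMap (ZMod 2) F).injective, by rw [ZMod.card]; exact h2⟩
      obtain ⟨d, rfl⟩ := hb.2 c
      exact ⟨C d, aeval_C _ _⟩
    have h1' : aeval ((ω : F) ^ (2 * 0)) (1 : (ZMod 2)[X]) = (ω : F) ^ 2 := by rw [map_one, hωF, one_pow]
    refine ⟨{U ^ 2, rAct 0 (1 : (ZMod 2)[X]), rSq 0, rOne, rGen 0 (1 : (ZMod 2)[X]) 1}, Finset.card_le_five, ?_⟩
    refine presents π hπ ω _ ?_ hgen 0 hsurj ?_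
    · intro r hr
      simp only [Finset.mem_insert, Finset.mem_singleton] at hr
      rcases hr with rfl | rfl | rfl | rfl | rfl
      · exact lift_comp π ω _ (ok_pow (p := 2) ω)
      · exact lift_comp π ω _ (ok_act ω 0 _ h1')
      · exact lift_comp π ω _ (ok_sq ω 0 hsq0)
      · exact lift_comp π ω _ (ok_one ω)
      · exact lift_comp π ω _ (ok_gen ω 0 _ _ (by rw [map_one, hωF]) (by rw [map_one, hω1, inv_one, Units.val_one]))
    · intro u h t hr
      obtain ⟨-, r1, r2, -, -, -, -, r7, r8, r9⟩ := read (p := 2) u h t 0 0 0 0 (1 : (ZMod 2)[X]) 1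
      have hu := r1 (hr _ (by simp))
      have ht2 := r7 (hr _ (by simp))
      have h8 := r8 (hr _ (by simp))
      have h9 := r9 (hr _ (by simp))
      rw [pow_zero] at ht2
      rw [pev_one, h8] at h9
      have hh : h = 1 := right_eq_mul.1 h9
      obtain ⟨x, hadd, hact, hxP, hx1⟩ := exists_hom u h 0 ((ω : F) ^ (2 * 0)) ((ω : F) ^ 2) hsurj hu (fun k => by simp) (by
        rw [show ((ω : F) ^ (2 * 0)) = algebraMap (ZMod 2) F 1 by simp, minpoly.eq_X_sub_C, pev, natDegree_X_sub_C]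
        simp only [zero_mul, pow_zero, one_mul, inv_one, mul_one, List.range_succ, List.range_zero, List.nil_append,
          List.singleton_append, List.map_cons, List.map_nil, List.prod_cons, List.prod_nil, coeff_sub, coeff_X_zero,
          coeff_C_zero, coeff_X_one, coeff_C_succ, zero_sub, sub_zero]
        rw [← pow_add, ← orderOf_dvd_iff_pow_eq_one]
        refine dvd_trans (orderOf_dvd_of_pow_eq_one hu) ?_
        rw [← CharP.cast_eq_zero_iff (ZMod 2) 2]
        simp
        exact CharTwo.add_self_eq_zero 1) 1 h1' (r2 (hr _ (by simp)))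
      refine ⟨fun z hz => Or.inl (hkerbot z hz), x, hadd, hact, hxP, hx1, by rw [hh]; group,
        fun c => by rw [ht2]; exact Commute.one_left _, by rw [hx1]; exact h8, ?_⟩
      rw [hωF, hω1, inv_one, Units.val_one, hx1, h8, hh, one_mul]
  · -- at least four elements
    have hqe : Even q := by rw [hk, even_iff_two_dvd]; exact dvd_pow_self 2 (fun h => by rw [hk, h, pow_zero] at h2; omega)
    have hodd : Odd (q - 1) := by obtain ⟨m, hm⟩ := hqe; exact ⟨m - 1, by omega⟩
    have ha : 1 + (ω : F) ^ (2 * 1) ≠ 0 := by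
      intro h
      have h1 : ((ω ^ 2 : Fˣ) : F) = ((1 : Fˣ) : F) := by
        rw [Units.val_pow_eq_pow_val, Units.val_one]
        have := eq_neg_of_add_eq_zero_right h
        simpa [CharTwo.neg_eq] using this
      have h3 := orderOf_dvd_of_pow_eq_one (Units.ext h1)
      rw [hω] at h3
      have h4 := Nat.le_of_dvd (by omega) h3
      obtain ⟨m, hm⟩ := hodd
      omega
    have hsqr : ∀ s : Fˣ, ∃ m : ℕ, (ω ^ 2) ^ m = s := by
      intro s
      obtain ⟨n, hn⟩ := hgen s
      obtain ⟨m, hm⟩ := hodd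
      refine ⟨n * (m + 1), ?_⟩
      rw [← pow_mul, show 2 * (n * (m + 1)) = n * (q - 1) + n by rw [hm]; ring, pow_add, mul_comm n, pow_mul, ← hω,
        pow_orderOf_eq_one, one_pow, one_mul, hn]
    have hsurj : ∀ c : F, ∃ P : (ZMod 2)[X], aeval ((ω : F) ^ (2 * 1)) P = c := by
      intro c
      rcases eq_or_ne c 0 with rfl | hc
      · exact ⟨0, map_zero _⟩
      · obtain ⟨m, hm⟩ := hsqr (Units.mk0 c hc)
        refine ⟨X ^ m, ?_⟩
        rw [map_pow, aeval_X, mul_one, ← Units.val_pow_eq_pow_val, ← Units.val_pow_eq_pow_val, hm, Units.val_mk0]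
    obtain ⟨j, hj⟩ := hsqr (Units.mk0 _ ha)
    have hbj : (ω : F) ^ (2 * j) = 1 + (ω : F) ^ (2 * 1) := by
      rw [← Units.val_pow_eq_pow_val, pow_mul, hj, Units.val_mk0]
    obtain ⟨P, hP⟩ := hsurj (ω : F)
    obtain ⟨P', hP'⟩ := hsurj ((ω⁻¹ : Fˣ) : F)
    set a := (ω : F) ^ (2 * 1) with hadef
    refine ⟨{U ^ 2, rTri 1 j, rMin 1 (minpoly (ZMod 2) a) (q - 1), rSq 0, rGen 1 P P'}, Finset.card_le_five, ?_⟩
    refine presents π hπ ω _ ?_ hgen 1 hsurj ?_
    · intro r hr
      simp only [Finset.mem_insert, Finset.mem_singleton] at hr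
      rcases hr with rfl | rfl | rfl | rfl | rfl
      · exact lift_comp π ω _ (ok_pow (p := 2) ω)
      · exact lift_comp π ω _ (ok_tri ω 1 j hbj)
      · exact lift_comp π ω _ (ok_min ω 1 _ (by rw [← hω, pow_orderOf_eq_one]))
      · exact lift_comp π ω _ (ok_sq ω 0 hsq0)
      · exact lift_comp π ω _ (ok_gen ω 1 P P' hP hP')
    · intro u h t hr
      obtain ⟨-, r1, -, -, r5, -, -, r7, -, r9⟩ := read (p := 2) u h t 1 j 0 0 P P'
      obtain ⟨-, -, -, -, -, r4, -⟩ := read (p := 2) u h t 1 j (q - 1) 0 (minpoly (ZMod 2) a) P'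
      have hu := r1 (hr _ (by simp))
      have hb := r5 (hr _ (by simp))
      have ht2 := r7 (hr _ (by simp))
      have h9 := r9 (hr _ (by simp))
      have hm0 := r4 (hr _ (by simp))
      rw [pow_zero] at ht2
      have hc1 : Commute u (h ^ 1 * u * (h ^ 1)⁻¹) := by
        have hv : (h ^ 1 * u * (h ^ 1)⁻¹) ^ 2 = 1 := by rw [← conj_pow', hu, mul_one, mul_inv_cancel]
        have huv : (u * (h ^ 1 * u * (h ^ 1)⁻¹)) ^ 2 = 1 := by rw [← hb, ← conj_pow', hu, mul_one, mul_inv_cancel]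
        have := inv_of_sq _ huv
        rw [_root_.mul_inv_rev, inv_of_sq u hu, inv_of_sq _ hv] at this
        exact this.symm
      have hcomm := commute_of_triangle hc1 hb
      have hm1 := eq_one_of_fixed hcomm hb _ _ hm0
      have hN : h ^ (q - 1) = 1 := by rw [← hm0]; exact hm1
      obtain ⟨x, hadd, hact, hxP, hx1⟩ := exists_hom u h 1 a ((ω : F) ^ 2) hsurj hu hcomm hm1 X
        (by rw [aeval_X, hadef, mul_one]) (by
          haveI : Fact (1 < 2) := ⟨one_lt_two⟩
          simp [pev, List.range_succ, ZMod.val_one])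
      rw [← hxP, ← hxP, hP, hP'] at h9
      have hx2 : ∀ c, x c * x c = 1 := fun c => by
        have h0 : x 0 = 1 := by
          have := hadd 0 0
          rw [add_zero] at this
          exact left_eq_mul.1 this
        rw [← hadd, CharTwo.add_self_eq_zero, h0]
      have htinv : t⁻¹ = t := inv_of_sq t ht2
      have htt : t * t = 1 := by rw [← pow_two t, ht2]
      have hth : t * h * t⁻¹ = h⁻¹ := by
        -- `h t` is a palindrome of involutions
        have h1 : (h * t) * (h * t) = 1 := by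
          rw [← h9, htinv]
          calc x (ω : F) * t * x ((ω⁻¹ : Fˣ) : F) * t * x (ω : F) * (x (ω : F) * t * x ((ω⁻¹ : Fˣ) : F) * t * x (ω : F))
              = x (ω : F) * t * x ((ω⁻¹ : Fˣ) : F) * t * (x (ω : F) * x (ω : F)) * t * x ((ω⁻¹ : Fˣ) : F) * t * x (ω : F) := by
                group
            _ = x (ω : F) * t * x ((ω⁻¹ : Fˣ) : F) * (t * t) * x ((ω⁻¹ : Fˣ) : F) * t * x (ω : F) := by
                rw [hx2, mul_one]; group
            _ = x (ω : F) * t * (x ((ω⁻¹ : Fˣ) : F) * x ((ω⁻¹ : Fˣ) : F)) * t * x (ω : F) := by rw [htt, mul_one]; group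
            _ = x (ω : F) * (t * t) * x (ω : F) := by rw [hx2, mul_one]; group
            _ = 1 := by rw [htt, mul_one, hx2]
        rw [htinv]
        exact eq_inv_of_mul_eq_one_right (by rw [← h1]; group)
      refine ⟨fun z hz => Or.inl (hkerbot z hz), x, hadd, hact, hxP, hx1, hth,
        fun c => by rw [ht2]; exact Commute.one_left _, ?_, h9⟩
      -- `w(1) = t`
      obtain ⟨m, hm⟩ := hodd
      have hp := conj_pow_act hact m
      have hνm : ((ω : F) ^ 2) ^ m * (ω : F) = 1 := by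
        rw [← pow_mul, ← pow_succ, ← hm, ← hω, ← Units.val_pow_eq_pow_val, pow_orderOf_eq_one, Units.val_one]
      have ht' : ∀ m : ℕ, t * h ^ m * t⁻¹ = (h ^ m)⁻¹ := fun m => by
        rw [conj_pow', hth, inv_pow]
      have hflip : t * (h ^ m)⁻¹ = h ^ m * t := by
        rw [← ht' m, show t * (t * h ^ m * t⁻¹) = (t * t) * h ^ m * t⁻¹ by group, htt, one_mul, htinv]
      have e1 : h ^ m * (h * t) * (h ^ m)⁻¹ = t := by
        calc h ^ m * (h * t) * (h ^ m)⁻¹ = h ^ m * h * (t * (h ^ m)⁻¹) := by group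
          _ = h ^ m * h * (h ^ m * t) := by rw [hflip]
          _ = h ^ (m + 1 + m) * t := by rw [pow_add h (m + 1) m, pow_succ h m]; group
          _ = t := by rw [show m + 1 + m = q - 1 by omega, hN, one_mul]
      have e2 : h ^ m * x ((ω⁻¹ : Fˣ) : F) * (h ^ m)⁻¹ = x (((ω : F) ^ 2) ^ m * ((ω⁻¹ : Fˣ) : F)) := hp _
      have hconjt : ∀ y, h ^ m * (t * y * t⁻¹) * (h ^ m)⁻¹ = t * ((h ^ m)⁻¹ * y * h ^ m) * t⁻¹ := fun y => by
        have hh : h ^ m * t = t * (h ^ m)⁻¹ := hflip.symm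
        calc h ^ m * (t * y * t⁻¹) * (h ^ m)⁻¹ = (h ^ m * t) * y * (h ^ m * t)⁻¹ := by group
          _ = _ := by rw [hh]; group
      have e3 : (h ^ m)⁻¹ * x ((ω⁻¹ : Fˣ) : F) * h ^ m = x 1 := by
        have := hp 1
        rw [mul_one] at this
        have hval : ((ω : F) ^ 2) ^ m = ((ω⁻¹ : Fˣ) : F) := by
          rw [Units.val_inv_eq_inv_val]
          exact eq_inv_of_mul_eq_one_left hνm
        rw [hval] at this
        rw [← this]; group
      calc x 1 * t * x 1 * t⁻¹ * x 1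
          = x 1 * (t * x 1 * t⁻¹) * x 1 := by group
        _ = x (((ω : F) ^ 2) ^ m * (ω : F)) * (t * ((h ^ m)⁻¹ * x ((ω⁻¹ : Fˣ) : F) * h ^ m) * t⁻¹) *
            x (((ω : F) ^ 2) ^ m * (ω : F)) := by rw [hνm, e3]
        _ = (h ^ m * x (ω : F) * (h ^ m)⁻¹) * (h ^ m * (t * x ((ω⁻¹ : Fˣ) : F) * t⁻¹) * (h ^ m)⁻¹) *
            (h ^ m * x (ω : F) * (h ^ m)⁻¹) := by rw [hp, hconjt]
        _ = h ^ m * (x (ω : F) * t * x ((ω⁻¹ : Fˣ) : F) * t⁻¹ * x (ω : F)) * (h ^ m)⁻¹ := by group
        _ = t := by rw [h9, e1]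

theorem main (F : Type u) [Field F] [Fintype F] :
    (∃ rels : Finset (FreeGroup (Fin 3)), rels.card ≤ 9 ∧ Nonempty (PresentedGroup (↑rels : Set (FreeGroup (Fin 3))) ≃* Matrix.SpecialLinearGroup (Fin 2) F)) ∧
    (∃ rels : Finset (FreeGroup (Fin 3)), rels.card ≤ 9 ∧ Nonempty (PresentedGroup (↑rels : Set (FreeGroup (Fin 3))) ≃* Matrix.ProjectiveSpecialLinearGroup (Fin 2) F)) ∧
    (CharP F 2 → ∃ rels : Finset (FreeGroup (Fin 3)), rels.card ≤ 5 ∧ Nonempty (PresentedGroup (↑rels : Set (FreeGroup (Fin 3))) ≃* Matrix.ProjectiveSpecialLinearGroup (Fin 2) F)) := by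
  classical
  obtain ⟨p, hpF⟩ := CharP.exists F
  obtain ⟨k, hpp, hk⟩ := FiniteField.card F p
  haveI := Fact.mk hpp
  letI : Algebra (ZMod p) F := ZMod.algebra F p
  set π0 := MonoidHom.id (Matrix.SpecialLinearGroup (Fin 2) F)
  set π1 := QuotientGroup.mk' (Subgroup.center (Matrix.SpecialLinearGroup (Fin 2) F)) with hπ1
  have hs1 : Function.Surjective π1 := QuotientGroup.mk'_surjective _
  have hk1 : π1.ker ≤ Subgroup.center (Matrix.SpecialLinearGroup (Fin 2) F) := by rw [hπ1, QuotientGroup.ker_mk']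
  by_cases hp2 : p = 2
  · subst hp2
    obtain ⟨r0, hr0, hi0⟩ := even_case (k : ℕ) hk π0 Function.surjective_id (by
      intro z hz
      rw [show z = 1 from hz]
      exact Subgroup.one_mem _)
    obtain ⟨r1, hr1, hi1⟩ := even_case (k : ℕ) hk π1 hs1 hk1
    exact ⟨⟨r0, by omega, hi0⟩, ⟨r1, by omega, hi1⟩, fun _ => ⟨r1, hr1, hi1⟩⟩
  · refine ⟨odd_case hp2 (k : ℕ) hk π0 Function.surjective_id (Or.inl Function.injective_id),
      odd_case hp2 (k : ℕ) hk π1 hs1 (Or.inr ⟨hk1, ?_⟩), fun h2 => absurd (CharP.eq F hpF h2) hp2⟩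
    rw [hπ1, QuotientGroup.mk'_apply, QuotientGroup.eq_one_iff]
    refine Matrix.SpecialLinearGroup.mem_center_iff.2 ⟨-1, by simp, ?_⟩
    rw [T'_sq]
    ext i j
    fin_cases i <;> fin_cases j <;> simp [H']

end Cfsg.Agent.Lib.SLTwoPres.Final
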