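import Mathlib

/-!
# Short presentations of a Borel subgroup of `SL₂`
-/

set_option autoImplicit false

namespace Cfsg.Agent.Lib.SLTwoPres.Borel

open Polynomial

variable {p : ℕ} [Fact p.Prime]

/-- `∏ (h^{ik} u h^{-ik})^{P_k}`, in the order of `k`. -/
noncomputable def pev {G : Type*} [Group G] (u h : G) (i : ℕ) (P : (ZMod p)[X]) : G :=
  ((List.range (P.natDegree + 1)).map fun k => (h ^ (i * k) * u * (h ^ (i * k))⁻¹) ^ (P.coeff k).val).prod

theorem map_pev {G H : Type*} [Group G] [Group H] (φ : G →* H) (u h : G) (i : ℕ) (P : (ZMod p)[X]) :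
    φ (pev u h i P) = pev (φ u) (φ h) i P := by
  rw [pev, pev, map_list_prod, List.map_map]
  exact congrArg List.prod (List.map_congr_left fun k _ => by
    simp only [Function.comp_apply, map_pow, map_mul, map_inv])

theorem pev_one {G : Type*} [Group G] (u h : G) (i : ℕ) : pev u h i (1 : (ZMod p)[X]) = u := by
  haveI : Fact (1 < p) := ⟨(Fact.out : p.Prime).one_lt⟩
  simp [pev, ZMod.val_one]

theorem conj_pow' {G : Type*} [Group G] (g v : G) (n : ℕ) : g * v ^ n * g⁻¹ = (g * v * g⁻¹) ^ n :=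
  (_root_.conj_pow (i := n) (a := g) (b := v)).symm

/-- Abelian closure of the conjugates. -/
theorem commute_conjugates {G : Type*} [Group G] {u h : G} {i : ℕ}
    (hcomm : ∀ k : ℕ, Commute u (h ^ (i * k) * u * (h ^ (i * k))⁻¹)) (k l : ℕ) :
    Commute (h ^ (i * k) * u * (h ^ (i * k))⁻¹) (h ^ (i * l) * u * (h ^ (i * l))⁻¹) := by
  have key : ∀ k l : ℕ, k ≤ l →
      Commute (h ^ (i * k) * u * (h ^ (i * k))⁻¹) (h ^ (i * l) * u * (h ^ (i * l))⁻¹) := fun k l hkl => by
    obtain ⟨d, rfl⟩ := Nat.exists_eq_add_of_le hkl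
    have := (hcomm d).map (MulAut.conj (h ^ (i * k))).toMonoidHom
    simp only [MulEquiv.coe_toMonoidHom, MulAut.conj_apply] at this
    convert this using 1
    rw [mul_add, pow_add]
    group
  rcases le_total k l with h' | h'
  · exact key k l h'
  · exact (key l k h').symm

/-- The triangle trick: `u^b = u u^a` and `[u, u^a] = 1` make all `u^{a^k}` commute. -/
theorem commute_of_triangle {G : Type*} [Group G] {u h : G} {i j : ℕ}
    (h1 : Commute u (h ^ i * u * (h ^ i)⁻¹)) (hb : h ^ j * u * (h ^ j)⁻¹ = u * (h ^ i * u * (h ^ i)⁻¹)) :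
    ∀ k : ℕ, Commute u (h ^ (i * k) * u * (h ^ (i * k))⁻¹) := by
  let c : ℕ → G := fun k => h ^ (i * k) * u * (h ^ (i * k))⁻¹
  have c0 : c 0 = u := by simp [c]
  have c1 : c 1 = h ^ i * u * (h ^ i)⁻¹ := by simp [c]
  have hA : ∀ k, h ^ i * c k * (h ^ i)⁻¹ = c (k + 1) := fun k => by
    simp only [c, mul_add, mul_one, pow_add, ← pow_mul_comm (a := h) i (i * k)]
    group
  have hB : ∀ k, h ^ j * c k * (h ^ j)⁻¹ = c k * c (k + 1) := fun k => by
    have e : h ^ j * c k * (h ^ j)⁻¹ = h ^ (i * k) * (h ^ j * u * (h ^ j)⁻¹) * (h ^ (i * k))⁻¹ := by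
      simp only [c]
      calc h ^ j * (h ^ (i * k) * u * (h ^ (i * k))⁻¹) * (h ^ j)⁻¹
          = (h ^ j * h ^ (i * k)) * u * (h ^ j * h ^ (i * k))⁻¹ := by group
        _ = (h ^ (i * k) * h ^ j) * u * (h ^ (i * k) * h ^ j)⁻¹ := by rw [pow_mul_comm]
        _ = _ := by group
    rw [e, hb]
    simp only [c, mul_add, mul_one, pow_add]
    group
  have key : ∀ n k, k ≤ n → Commute u (c k) := by
    intro n
    induction n with
    | zero => intro k hk; rw [Nat.le_zero.1 hk, c0]
    | succ n ih =>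
      intro k hk
      rcases Nat.lt_or_ge k (n + 1) with h' | h'
      · exact ih k (by omega)
      obtain rfl : k = n + 1 := by omega
      rcases Nat.eq_zero_or_pos n with rfl | hn
      · rw [c1]; exact h1
      have sh : ∀ m, m ≤ n → Commute (c 1) (c (m + 1)) := fun m hm => by
        have := (ih m hm).map (MulAut.conj (h ^ i)).toMonoidHom
        simp only [MulEquiv.coe_toMonoidHom, MulAut.conj_apply] at this
        rwa [hA, ← c1] at this
      have h2 : Commute (c 1) (c n) := by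
        have := sh (n - 1) (by omega)
        rwa [Nat.sub_add_cancel hn] at this
      have h3 : Commute (u * c 1) (c n * c (n + 1)) := by
        have := (ih n le_rfl).map (MulAut.conj (h ^ j)).toMonoidHom
        simp only [MulEquiv.coe_toMonoidHom, MulAut.conj_apply] at this
        rwa [hB, hb, ← c1] at this
      have h4 : Commute (u * c 1) (c (n + 1)) := by
        have := ((ih n le_rfl).mul_left h2).inv_right.mul_right h3
        rwa [inv_mul_cancel_left] at this
      have := h4.mul_left (sh n le_rfl).inv_left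
      rwa [mul_inv_cancel_right] at this
  exact fun k => key k k le_rfl

/-- Evaluation of polynomials at an additive endomorphism of a `ZMod p`-module. -/
theorem exists_eval_module {W : Type*} [AddCommGroup W] [Module (ZMod p) W] (f : W →+ W) (w0 : W) :
    ∃ e : (ZMod p)[X] → W, (∀ P Q, e (P + Q) = e P + e Q) ∧
      (∀ P : (ZMod p)[X], e P = ((List.range (P.natDegree + 1)).map fun k => (P.coeff k).val • f^[k] w0).sum) ∧
      (∀ P Q, e Q = 0 → e (P * Q) = 0) ∧ (∀ k, e (X ^ k) = f^[k] w0) ∧ (∀ P k, e (P * X ^ k) = f^[k] (e P)) := by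
  classical
  let A : Module.End (ZMod p) W := AddMonoidHom.toZModLinearMap p f
  have hA : ∀ (k : ℕ) (x : W), (A ^ k) x = f^[k] x := by
    intro k
    induction k with
    | zero => intro x; rfl
    | succ k ih =>
      intro x
      rw [pow_succ', Module.End.mul_apply, Function.iterate_succ_apply', ← ih]
      rfl
  refine ⟨fun P => aeval A P w0, fun P Q => ?_, fun P => ?_, fun P Q hQ => ?_, fun k => ?_, fun P k => ?_⟩
  · dsimp only
    rw [map_add, LinearMap.add_apply]
  · dsimp only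
    rw [← List.sum_toFinset _ (List.nodup_range), List.toFinset_range]
    rw [aeval_eq_sum_range, LinearMap.sum_apply]
    refine Finset.sum_congr rfl fun k _ => ?_
    rw [LinearMap.smul_apply, hA]
    conv_lhs => rw [← ZMod.natCast_zmod_val (P.coeff k), Nat.cast_smul_eq_nsmul]
  · dsimp only at hQ ⊢
    rw [map_mul, Module.End.mul_apply, hQ, map_zero]
  · dsimp only
    rw [map_pow, aeval_X, hA]
  · dsimp only
    rw [mul_comm, map_mul, map_pow, aeval_X, Module.End.mul_apply, hA]

/-- Evaluation of polynomials at an endomorphism of an elementary abelian group. -/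
theorem exists_eval {V : Type*} [CommGroup V] (hV : ∀ v : V, v ^ p = 1) (f : V →* V) (v0 : V) :
    ∃ e : (ZMod p)[X] → V, (∀ P Q, e (P + Q) = e P * e Q) ∧
      (∀ P : (ZMod p)[X], e P = ((List.range (P.natDegree + 1)).map fun k => (f^[k] v0) ^ (P.coeff k).val).prod) ∧
      (∀ P Q, e Q = 1 → e (P * Q) = 1) ∧ (∀ k, e (X ^ k) = f^[k] v0) ∧ (∀ P k, e (P * X ^ k) = f^[k] (e P)) := by
  obtain ⟨e, h1, h2, h3, h4, h5⟩ := @exists_eval_module p _ (Additive V) _
    (AddCommGroup.zmodModule fun x => (hV (Additive.toMul x) : _)) (MonoidHom.toAdditive f) (Additive.ofMul v0)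
  refine ⟨fun P => Additive.toMul (e P), fun P Q => congrArg Additive.toMul (h1 P Q), fun P => ?_,
    fun P Q hQ => congrArg Additive.toMul (h3 P Q hQ), fun k => congrArg Additive.toMul (h4 k),
    fun P k => congrArg Additive.toMul (h5 P k)⟩
  show Additive.toMul (e P) = _
  rw [h2]
  induction List.range (P.natDegree + 1) with
  | nil => rfl
  | cons k L ihL =>
    rw [List.map_cons, List.sum_cons, List.map_cons, List.prod_cons, toMul_add, toMul_nsmul, ihL]
    rfl

variable {F : Type*} [Field F] [Algebra (ZMod p) F]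

/-- The root group. -/
theorem exists_hom {G : Type*} [Group G] (u h : G) (i : ℕ) (a ν : F)
    (hsurj : ∀ c : F, ∃ P : (ZMod p)[X], aeval a P = c)
    (hp : u ^ p = 1) (hcomm : ∀ k : ℕ, Commute u (h ^ (i * k) * u * (h ^ (i * k))⁻¹))
    (hm : pev u h i (minpoly (ZMod p) a) = 1)
    (Pν : (ZMod p)[X]) (hPν : aeval a Pν = ν) (hH : h * u * h⁻¹ = pev u h i Pν) :
    ∃ x : F → G, (∀ c d, x (c + d) = x c * x d) ∧ (∀ c, h * x c * h⁻¹ = x (ν * c)) ∧
      (∀ P : (ZMod p)[X], x (aeval a P) = pev u h i P) ∧ x 1 = u := by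
  classical
  let S : Set G := Set.range fun k : ℕ => h ^ (i * k) * u * (h ^ (i * k))⁻¹
  let U : Subgroup G := Subgroup.closure S
  have hmemS : ∀ k, h ^ (i * k) * u * (h ^ (i * k))⁻¹ ∈ U := fun k => Subgroup.subset_closure ⟨k, rfl⟩
  have hU : ∀ x y : U, x * y = y * x := by
    rintro ⟨x, hx⟩ ⟨y, hy⟩
    apply Subtype.ext
    show Commute x y
    induction hx, hy using Subgroup.closure_induction₂ with
    | mem a b ha hb => obtain ⟨k, rfl⟩ := ha; obtain ⟨l, rfl⟩ := hb; exact commute_conjugates hcomm k l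
    | one_left b _ => exact Commute.one_left b
    | one_right b _ => exact Commute.one_right b
    | mul_left x y z _ _ _ h₁ h₂ => exact h₁.mul_left h₂
    | mul_right y z x _ _ _ h₁ h₂ => exact h₁.mul_right h₂
    | inv_left x y _ _ h' => exact h'.inv_left
    | inv_right x y _ _ h' => exact h'.inv_right
  letI : CommGroup U := { (inferInstance : Group U) with mul_comm := hU }
  have hpU : ∀ x : U, x ^ p = 1 := by
    have h0 : ∀ x : G, x ∈ U → x ^ p = 1 := fun x hx => by
      induction hx using Subgroup.closure_induction with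
      | mem x hx => obtain ⟨k, rfl⟩ := hx; rw [← conj_pow', hp, mul_one, mul_inv_cancel]
      | one => exact one_pow _
      | mul x y hx' hy' h₁ h₂ =>
        rw [(show Commute x y from congrArg Subtype.val (hU ⟨x, hx'⟩ ⟨y, hy'⟩)).mul_pow, h₁, h₂, mul_one]
      | inv x _ h₁ => rw [inv_pow, h₁, inv_one]
    intro x
    exact Subtype.ext (h0 _ x.2)
  -- conjugation by `h ^ i` and by `h`
  have hconjU : ∀ g : G, (∀ k, g * (h ^ (i * k) * u * (h ^ (i * k))⁻¹) * g⁻¹ ∈ U) → ∀ x ∈ U, g * x * g⁻¹ ∈ U :=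
    fun g hg x hx => by
      induction hx using Subgroup.closure_induction with
      | mem x hx => obtain ⟨k, rfl⟩ := hx; exact hg k
      | one => rw [mul_one, mul_inv_cancel]; exact U.one_mem
      | mul x y _ _ h₁ h₂ => rw [show g * (x * y) * g⁻¹ = (g * x * g⁻¹) * (g * y * g⁻¹) by group]; exact U.mul_mem h₁ h₂
      | inv x _ h₁ => rw [show g * x⁻¹ * g⁻¹ = (g * x * g⁻¹)⁻¹ by group]; exact U.inv_mem h₁
  have hAU : ∀ x ∈ U, h ^ i * x * (h ^ i)⁻¹ ∈ U := hconjU _ fun k => by
    have := hmemS (k + 1)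
    rw [mul_add, mul_one, add_comm, pow_add] at this
    convert this using 1
    group
  let f : U →* U :=
    { toFun := fun x => ⟨h ^ i * x.1 * (h ^ i)⁻¹, hAU _ x.2⟩
      map_one' := Subtype.ext (by simp)
      map_mul' := fun x y => Subtype.ext (by
        show h ^ i * (x.1 * y.1) * (h ^ i)⁻¹ = h ^ i * x.1 * (h ^ i)⁻¹ * (h ^ i * y.1 * (h ^ i)⁻¹)
        group) }
  have hf : ∀ (k : ℕ) (y : U), ((f^[k] y : U) : G) = h ^ (i * k) * (y : G) * (h ^ (i * k))⁻¹ := by
    intro k y
    induction k with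
    | zero => simp
    | succ k ih =>
      rw [Function.iterate_succ_apply']
      show h ^ i * ((f^[k] y : U) : G) * (h ^ i)⁻¹ = _
      rw [ih, mul_add, mul_one, add_comm, pow_add]
      group
  obtain ⟨e, e_add, e_def, e_ann, e_X, e_mulX⟩ := exists_eval (p := p) hpU f ⟨u, by simpa using hmemS 0⟩
  have he : ∀ P, ((e P : U) : G) = pev u h i P := fun P => by
    rw [e_def, pev, ← Subgroup.coe_subtype, map_list_prod, List.map_map]
    exact congrArg List.prod (List.map_congr_left fun k _ => by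
      simp only [Function.comp_apply, Subgroup.coe_subtype, SubmonoidClass.coe_pow, hf])
  have e_zero : e 0 = 1 := by
    have := e_add 0 0
    rw [add_zero] at this
    exact left_eq_mul.1 this
  have hker : ∀ P : (ZMod p)[X], aeval a P = 0 → e P = 1 := by
    intro P hP
    obtain ⟨Q, rfl⟩ := minpoly.dvd (ZMod p) a hP
    rw [mul_comm]
    exact e_ann Q _ (Subtype.ext ((he _).trans hm))
  choose rep hrep using hsurj
  have hxa : ∀ P : (ZMod p)[X], e (rep (aeval a P)) = e P := fun P => by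
    have h1 := e_add (rep (aeval a P) - P) P
    rw [sub_add_cancel, hker (rep (aeval a P) - P) (by rw [map_sub, hrep, sub_self]), one_mul] at h1
    exact h1
  refine ⟨fun c => ((e (rep c) : U) : G), fun c d => ?_, fun c => ?_, fun P => ?_, ?_⟩
  · show ((e (rep (c + d)) : U) : G) = _
    conv_lhs => rw [← hrep c, ← hrep d, ← map_add, hxa, e_add, Subgroup.coe_mul]
  · show h * ((e (rep c) : U) : G) * h⁻¹ = ((e (rep (ν * c)) : U) : G)
    have key : ∀ P, h * ((e P : U) : G) * h⁻¹ = ((e (Pν * P) : U) : G) := by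
      intro P
      induction P using Polynomial.induction_on' with
      | add P Q hP hQ =>
        rw [e_add, mul_add, e_add, Subgroup.coe_mul, Subgroup.coe_mul, ← hP, ← hQ]
        group
      | monomial k c =>
        have hc : monomial k c = (c.val : ℕ) • monomial k (1 : ZMod p) := by
          rw [← map_nsmul, nsmul_eq_mul, mul_one, ZMod.natCast_zmod_val]
        have e_nsmul : ∀ (m : ℕ) Q, e (m • Q) = e Q ^ m := fun m Q => by
          induction m with
          | zero => rw [zero_nsmul, e_zero, pow_zero]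
          | succ m ih => rw [succ_nsmul, e_add, ih, pow_succ]
        rw [hc, mul_smul_comm, e_nsmul, e_nsmul, SubmonoidClass.coe_pow, SubmonoidClass.coe_pow, conj_pow']
        congr 1
        rw [show monomial k (1 : ZMod p) = X ^ k by rw [← C_mul_X_pow_eq_monomial, C_1, one_mul], e_X, e_mulX, hf, hf, he, ← hH]
        calc h * (h ^ (i * k) * u * (h ^ (i * k))⁻¹) * h⁻¹ = (h * h ^ (i * k)) * u * (h * h ^ (i * k))⁻¹ := by group
          _ = (h ^ (i * k) * h) * u * (h ^ (i * k) * h)⁻¹ := by rw [← pow_succ', pow_succ]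
          _ = _ := by group
    rw [key, ← hxa, map_mul, hPν, hrep]
  · show ((e (rep (aeval a P)) : U) : G) = _
    rw [hxa, he]
  · show ((e (rep 1) : U) : G) = u
    rw [show (1 : F) = aeval a (1 : (ZMod p)[X]) by rw [map_one], hxa, he, pev_one]

/-- A polynomial relation with a merged right hand side. -/
theorem eq_one_of_fixed {G : Type*} [Group G] {u h : G} {i j : ℕ}
    (hcomm : ∀ k : ℕ, Commute u (h ^ (i * k) * u * (h ^ (i * k))⁻¹))
    (hb : h ^ j * u * (h ^ j)⁻¹ = u * (h ^ i * u * (h ^ i)⁻¹)) (P : (ZMod p)[X]) (N : ℕ)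
    (hP : pev u h i P = h ^ N) : pev u h i P = 1 := by
  set U := Subgroup.closure (Set.range fun k : ℕ => h ^ (i * k) * u * (h ^ (i * k))⁻¹)
  have hgen : ∀ k, h ^ j * (h ^ (i * k) * u * (h ^ (i * k))⁻¹) * (h ^ j)⁻¹ =
      (h ^ (i * k) * u * (h ^ (i * k))⁻¹) * (h ^ i * (h ^ (i * k) * u * (h ^ (i * k))⁻¹) * (h ^ i)⁻¹) := fun k => by
    calc h ^ j * (h ^ (i * k) * u * (h ^ (i * k))⁻¹) * (h ^ j)⁻¹
        = (h ^ j * h ^ (i * k)) * u * (h ^ j * h ^ (i * k))⁻¹ := by group
      _ = (h ^ (i * k) * h ^ j) * u * (h ^ (i * k) * h ^ j)⁻¹ := by rw [pow_mul_comm]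
      _ = h ^ (i * k) * (h ^ j * u * (h ^ j)⁻¹) * (h ^ (i * k))⁻¹ := by group
      _ = (h ^ (i * k) * u * (h ^ (i * k))⁻¹) * ((h ^ (i * k) * h ^ i) * u * (h ^ (i * k) * h ^ i)⁻¹) := by rw [hb]; group
      _ = _ := by rw [pow_mul_comm]; group
  have hab : ∀ x ∈ U, ∀ y ∈ U, Commute x y := by
    intro x hx y hy
    induction hx, hy using Subgroup.closure_induction₂ with
    | mem a b ha hb => obtain ⟨k, rfl⟩ := ha; obtain ⟨l, rfl⟩ := hb; exact commute_conjugates hcomm k l
    | one_left b _ => exact Commute.one_left b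
    | one_right b _ => exact Commute.one_right b
    | mul_left x y z _ _ _ h₁ h₂ => exact h₁.mul_left h₂
    | mul_right y z x _ _ _ h₁ h₂ => exact h₁.mul_right h₂
    | inv_left x y _ _ h' => exact h'.inv_left
    | inv_right x y _ _ h' => exact h'.inv_right
  have hAmem : ∀ x ∈ U, h ^ i * x * (h ^ i)⁻¹ ∈ U := fun x hx => by
    induction hx using Subgroup.closure_induction with
    | mem x hx =>
      obtain ⟨k, rfl⟩ := hx
      refine Subgroup.subset_closure ⟨k + 1, ?_⟩
      show h ^ (i * (k + 1)) * u * (h ^ (i * (k + 1)))⁻¹ = _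
      rw [mul_add, mul_one, add_comm, pow_add]
      group
    | one => rw [mul_one, mul_inv_cancel]; exact U.one_mem
    | mul x y _ _ h₁ h₂ => rw [show h ^ i * (x * y) * (h ^ i)⁻¹ = (h ^ i * x * (h ^ i)⁻¹) * (h ^ i * y * (h ^ i)⁻¹) by group]; exact U.mul_mem h₁ h₂
    | inv x _ h₁ => rw [show h ^ i * x⁻¹ * (h ^ i)⁻¹ = (h ^ i * x * (h ^ i)⁻¹)⁻¹ by group]; exact U.inv_mem h₁
  have hmap : ∀ x ∈ U, h ^ j * x * (h ^ j)⁻¹ = x * (h ^ i * x * (h ^ i)⁻¹) := fun x hx => by
    induction hx using Subgroup.closure_induction with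
    | mem x hx => obtain ⟨k, rfl⟩ := hx; exact hgen k
    | one => group
    | mul x y hx' hy' h₁ h₂ =>
      calc h ^ j * (x * y) * (h ^ j)⁻¹ = (h ^ j * x * (h ^ j)⁻¹) * (h ^ j * y * (h ^ j)⁻¹) := by group
        _ = x * ((h ^ i * x * (h ^ i)⁻¹) * y) * (h ^ i * y * (h ^ i)⁻¹) := by rw [h₁, h₂]; group
        _ = x * (y * (h ^ i * x * (h ^ i)⁻¹)) * (h ^ i * y * (h ^ i)⁻¹) := by rw [(hab _ (hAmem x hx') y hy').eq]
        _ = _ := by group
    | inv x hx' h₁ =>
      calc h ^ j * x⁻¹ * (h ^ j)⁻¹ = (h ^ j * x * (h ^ j)⁻¹)⁻¹ := by group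
        _ = (h ^ i * x * (h ^ i)⁻¹)⁻¹ * x⁻¹ := by rw [h₁, mul_inv_rev]
        _ = x⁻¹ * (h ^ i * x * (h ^ i)⁻¹)⁻¹ := ((hab _ (U.inv_mem (hAmem x hx')) _ (U.inv_mem hx')).eq)
        _ = _ := by group
  have hM : pev u h i P ∈ U := by
    rw [pev]
    refine U.list_prod_mem fun z hz => ?_
    obtain ⟨k, -, rfl⟩ := List.mem_map.1 hz
    exact U.pow_mem (Subgroup.subset_closure ⟨k, rfl⟩) _
  have e := hmap _ hM
  have cj : ∀ m : ℕ, h ^ m * pev u h i P * (h ^ m)⁻¹ = pev u h i P := fun m => by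
    rw [hP, ← pow_add, add_comm, pow_add, mul_inv_cancel_right]
  rw [cj, cj] at e
  exact left_eq_mul.1 e

end Cfsg.Agent.Lib.SLTwoPres.Borel
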