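import Cfsg.Agent.Lib.SLTwoPres.Borel
import Cfsg.Agent.S2426

/-!
# Short presentations of `SL₂`: the Weyl element
-/

set_option autoImplicit false

namespace Cfsg.Agent.Lib.SLTwoPres.Core

open Matrix Polynomial
open Cfsg.Agent.Lib.SLTwoPres.Borel

universe u

variable {F : Type u} [Field F]

/-- Upper unitriangular matrix. -/
def X' (c : F) : Matrix.SpecialLinearGroup (Fin 2) F := ⟨!![1, c; 0, 1], by simp [Matrix.det_fin_two]⟩

/-- Lower unitriangular matrix. -/
def Y' (c : F) : Matrix.SpecialLinearGroup (Fin 2) F := ⟨!![1, 0; c, 1], by simp [Matrix.det_fin_two]⟩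

/-- Diagonal matrix. -/
def H' (s : Fˣ) : Matrix.SpecialLinearGroup (Fin 2) F :=
  ⟨!![(s : F), 0; 0, ((s⁻¹ : Fˣ) : F)], by simp [Matrix.det_fin_two]⟩

/-- The Weyl element. -/
def T' : Matrix.SpecialLinearGroup (Fin 2) F := ⟨!![0, 1; -1, 0], by simp [Matrix.det_fin_two]⟩

theorem X'_add (c d : F) : X' (c + d) = X' c * X' d := by
  refine Matrix.SpecialLinearGroup.ext _ _ fun i j => ?_
  try simp only [Matrix.SpecialLinearGroup.coe_mul]
  fin_cases i <;> fin_cases j <;> simp [Matrix.SpecialLinearGroup.coe_mul, X', Matrix.mul_apply, Fin.sum_univ_two, add_comm]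

theorem X'_zero : X' (0 : F) = 1 := by
  refine Matrix.SpecialLinearGroup.ext _ _ fun i j => ?_
  try simp only [Matrix.SpecialLinearGroup.coe_mul]
  fin_cases i <;> fin_cases j <;> simp [Matrix.SpecialLinearGroup.coe_mul, X']

theorem X'_pow (c : F) (n : ℕ) : X' c ^ n = X' ((n : F) * c) := by
  induction n with
  | zero => rw [pow_zero, Nat.cast_zero, zero_mul, X'_zero]
  | succ n ih => rw [pow_succ, ih, ← X'_add, Nat.cast_succ, add_mul, one_mul]

theorem H'_mul (s r : Fˣ) : H' (s * r) = H' s * H' r := by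
  refine Matrix.SpecialLinearGroup.ext _ _ fun i j => ?_
  try simp only [Matrix.SpecialLinearGroup.coe_mul]
  fin_cases i <;> fin_cases j <;> simp [Matrix.SpecialLinearGroup.coe_mul, H', Matrix.mul_apply, Fin.sum_univ_two, mul_comm]

theorem H'_one : H' (1 : Fˣ) = 1 := by
  refine Matrix.SpecialLinearGroup.ext _ _ fun i j => ?_
  try simp only [Matrix.SpecialLinearGroup.coe_mul]
  fin_cases i <;> fin_cases j <;> simp [Matrix.SpecialLinearGroup.coe_mul, H']

theorem H'_pow (s : Fˣ) (n : ℕ) : H' s ^ n = H' (s ^ n) := by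
  induction n with
  | zero => rw [pow_zero, pow_zero, H'_one]
  | succ n ih => rw [pow_succ, pow_succ, ih, H'_mul]

theorem H'_conj (s : Fˣ) (c : F) : H' s * X' c * (H' s)⁻¹ = X' ((s : F) ^ 2 * c) := by
  rw [mul_inv_eq_iff_eq_mul]
  refine Matrix.SpecialLinearGroup.ext _ _ fun i j => ?_
  try simp only [Matrix.SpecialLinearGroup.coe_mul]
  fin_cases i <;> fin_cases j <;> simp [Matrix.SpecialLinearGroup.coe_mul, H', X', Matrix.mul_apply, Fin.sum_univ_two] <;> field_simp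

theorem T'_H' (s : Fˣ) : T' * H' s * T'⁻¹ * H' s = 1 := by
  have h : T' * H' s = (H' s)⁻¹ * T' := by
    rw [eq_inv_mul_iff_mul_eq]
    refine Matrix.SpecialLinearGroup.ext _ _ fun i j => ?_
    try simp only [Matrix.SpecialLinearGroup.coe_mul]
    fin_cases i <;> fin_cases j <;> simp [Matrix.SpecialLinearGroup.coe_mul, H', T', Matrix.mul_apply, Fin.sum_univ_two]
  rw [h, mul_inv_cancel_right, inv_mul_cancel]

theorem T'_sq : (T' : Matrix.SpecialLinearGroup (Fin 2) F) ^ 2 = H' (-1) := by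
  rw [pow_two]
  refine Matrix.SpecialLinearGroup.ext _ _ fun i j => ?_
  try simp only [Matrix.SpecialLinearGroup.coe_mul]
  fin_cases i <;> fin_cases j <;> simp [Matrix.SpecialLinearGroup.coe_mul, T', H', Matrix.mul_apply, Fin.sum_univ_two]

theorem T'_conj (c : F) : T' * X' c * T'⁻¹ = Y' (-c) := by
  rw [mul_inv_eq_iff_eq_mul]
  refine Matrix.SpecialLinearGroup.ext _ _ fun i j => ?_
  try simp only [Matrix.SpecialLinearGroup.coe_mul]
  fin_cases i <;> fin_cases j <;> simp [Matrix.SpecialLinearGroup.coe_mul, T', X', Y', Matrix.mul_apply, Fin.sum_univ_two]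

theorem W'_eq (s : Fˣ) : X' (s : F) * T' * X' ((s⁻¹ : Fˣ) : F) * T'⁻¹ * X' (s : F) = H' s * T' := by
  rw [show X' (s : F) * T' * X' ((s⁻¹ : Fˣ) : F) * T'⁻¹ * X' (s : F) =
    X' (s : F) * (T' * X' ((s⁻¹ : Fˣ) : F) * T'⁻¹) * X' (s : F) by group, T'_conj]
  refine Matrix.SpecialLinearGroup.ext _ _ fun i j => ?_
  try simp only [Matrix.SpecialLinearGroup.coe_mul]
  fin_cases i <;> fin_cases j <;> simp [Matrix.SpecialLinearGroup.coe_mul, T', H', X', Y', Matrix.mul_apply, Fin.sum_univ_two]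

theorem R8_matrix : (X' 1 * T' * X' 1 * T'⁻¹ * X' 1 * T'⁻¹ : Matrix.SpecialLinearGroup (Fin 2) F) = 1 := by
  have h := W'_eq (1 : Fˣ)
  rw [inv_one, Units.val_one, H'_one, one_mul] at h
  rw [h, mul_inv_cancel]

variable {p : ℕ} [Fact p.Prime] [Algebra (ZMod p) F]

theorem pev_matrix (w : Fˣ) (i : ℕ) (P : (ZMod p)[X]) :
    pev (X' (1 : F)) (H' w) i P = X' (aeval ((w : F) ^ (2 * i)) P) := by
  have h1 : ∀ k, H' w ^ (i * k) * X' (1 : F) * (H' w ^ (i * k))⁻¹ = X' (((w : F) ^ (2 * i)) ^ k) := fun k => by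
    rw [H'_pow, H'_conj, Units.val_pow_eq_pow_val, mul_one, ← pow_mul, ← pow_mul]
    congr 2
    ring
  rw [pev, aeval_eq_sum_range, ← List.toFinset_range, List.sum_toFinset _ List.nodup_range]
  induction List.range (P.natDegree + 1) with
  | nil => rw [List.map_nil, List.prod_nil, List.map_nil, List.sum_nil, X'_zero]
  | cons k L ih =>
    rw [List.map_cons, List.prod_cons, List.map_cons, List.sum_cons, X'_add, ih, h1, X'_pow]
    congr 2
    rw [Algebra.smul_def]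
    congr 1
    conv_rhs => rw [← ZMod.natCast_zmod_val (P.coeff k), map_natCast]

omit [Fact p.Prime] [Algebra (ZMod p) F] in
/-- The homomorphism out of `SL₂`. -/
theorem exists_lift [Finite F] {G : Type*} [Group G] (ω : Fˣ) (hgen : ∀ s : Fˣ, ∃ n : ℕ, ω ^ n = s)
    (x : F → G) (h t : G) (hadd : ∀ c d, x (c + d) = x c * x d)
    (hact : ∀ c, h * x c * h⁻¹ = x ((ω : F) ^ 2 * c)) (hth : t * h * t⁻¹ = h⁻¹)
    (hz : ∀ c, Commute (t ^ 2) (x c)) (h8 : x 1 * t * x 1 * t⁻¹ * x 1 = t)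
    (h9 : x (ω : F) * t * x ((ω⁻¹ : Fˣ) : F) * t⁻¹ * x (ω : F) = h * t) :
    ∃ Φ : Matrix.SpecialLinearGroup (Fin 2) F →* G, (∀ c, Φ (X' c) = x c) ∧ Φ T' = t ∧ Φ (H' ω) = h := by
  classical
  obtain ⟨e, he1, he2⟩ := Cfsg.Agent.S2426.result (K := F)
  have hx0 : x 0 = 1 := by
    have := hadd 0 0
    rw [add_zero] at this
    exact left_eq_mul.1 this
  have hxinv : ∀ c, x (-c) = (x c)⁻¹ := fun c => eq_inv_of_mul_eq_one_left (by rw [← hadd, neg_add_cancel, hx0])
  have hpow : ∀ (m : ℕ) c, h ^ m * x c * (h ^ m)⁻¹ = x ((((ω ^ m : Fˣ)) : F) ^ 2 * c) := by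
    intro m c
    induction m with
    | zero => simp
    | succ m ih =>
      rw [pow_succ', _root_.mul_inv_rev, show h * h ^ m * x c * ((h ^ m)⁻¹ * h⁻¹) = h * (h ^ m * x c * (h ^ m)⁻¹) * h⁻¹ by group,
        ih, hact, Units.val_pow_eq_pow_val, Units.val_pow_eq_pow_val]
      congr 1
      ring
  have hpow' : ∀ (m : ℕ) c, (h ^ m)⁻¹ * x c * h ^ m = x (((((ω ^ m)⁻¹ : Fˣ)) : F) ^ 2 * c) := by
    intro m c
    have h1 := hpow m (((((ω ^ m)⁻¹ : Fˣ)) : F) ^ 2 * c)
    rw [← mul_assoc (((ω ^ m : Fˣ) : F) ^ 2), ← mul_pow, ← Units.val_mul, mul_inv_cancel, Units.val_one, one_pow, one_mul] at h1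
    rw [← h1]
    group
  have hht : ∀ m : ℕ, h ^ m * t = t * (h ^ m)⁻¹ := by
    intro m
    have h1 : h * t = t * h⁻¹ := by
      have h2 : t * h * t⁻¹ * h = 1 := by rw [hth, inv_mul_cancel]
      calc h * t = (t * h * t⁻¹ * h) * (h * t) * 1 := by rw [h2, one_mul, mul_one]
        _ = t * h⁻¹ := by
          rw [mul_one, hth, ← mul_assoc, inv_mul_cancel, one_mul]
          have : t = h * t * h := by
            calc t = (t * h * t⁻¹)⁻¹ * (t * h) := by group
              _ = _ := by rw [hth, inv_inv, ← mul_assoc]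
          conv_rhs => rw [this]
          group
    induction m with
    | zero => simp
    | succ m ih =>
      rw [pow_succ, mul_assoc, h1, ← mul_assoc, ih, mul_assoc, ← _root_.mul_inv_rev, ← pow_succ', pow_succ]
  let W : Fˣ → G := fun s => x (s : F) * t * x ((s⁻¹ : Fˣ) : F) * t⁻¹ * x (s : F)
  have hWconj : ∀ (s : Fˣ) (m : ℕ), h ^ m * W s * (h ^ m)⁻¹ = W (ω ^ (2 * m) * s) := by
    intro s m
    calc h ^ m * W s * (h ^ m)⁻¹ = (h ^ m * x (s : F) * (h ^ m)⁻¹) * (h ^ m * t) * x ((s⁻¹ : Fˣ) : F) *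
          (h ^ m * t)⁻¹ * (h ^ m * x (s : F) * (h ^ m)⁻¹) := by simp only [W]; group
      _ = (h ^ m * x (s : F) * (h ^ m)⁻¹) * t * ((h ^ m)⁻¹ * x ((s⁻¹ : Fˣ) : F) * h ^ m) * t⁻¹ *
          (h ^ m * x (s : F) * (h ^ m)⁻¹) := by rw [hht]; group
      _ = _ := by
        have e2 : (((ω ^ (2 * m) * s)⁻¹ : Fˣ) : F) = (((ω ^ m)⁻¹ : Fˣ) : F) ^ 2 * ((s⁻¹ : Fˣ) : F) := by
          simp [pow_mul']
          ring
        rw [hpow, hpow']
        simp only [W]
        rw [e2]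
        simp [pow_mul']
  have hW1 : W 1 = t := by
    simp only [W, inv_one, Units.val_one]
    exact h8
  have hWω : W ω = h * t := h9
  have hW : ∀ n : ℕ, W (ω ^ n) = h ^ n * t := by
    intro n
    rcases Nat.even_or_odd' n with ⟨m, rfl | rfl⟩
    · have := hWconj 1 m
      rw [mul_one, hW1] at this
      rw [← this, two_mul, pow_add]
      calc h ^ m * t * (h ^ m)⁻¹ = h ^ m * (t * (h ^ m)⁻¹) := by group
        _ = h ^ m * (h ^ m * t) := by rw [hht]
        _ = _ := by group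
    · have := hWconj ω m
      rw [hWω, ← pow_succ] at this
      rw [← this, pow_succ, two_mul, pow_add]
      calc h ^ m * (h * t) * (h ^ m)⁻¹ = h ^ m * h * (t * (h ^ m)⁻¹) := by group
        _ = h ^ m * h * (h ^ m * t) := by rw [hht]
        _ = h ^ m * (h * h ^ m) * t := by group
        _ = h ^ m * (h ^ m * h) * t := by rw [← pow_succ', pow_succ]
        _ = _ := by group
  let f : Bool × F → G := fun b => if b.1 then x b.2 else t * x (-b.2) * t⁻¹
  have ht2 : ∀ c, t⁻¹ * x c * t = t * x c * t⁻¹ := fun c => by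
    have := (hz c).eq
    calc t⁻¹ * x c * t = t⁻¹ * (x c * t ^ 2) * t⁻¹ := by group
      _ = t⁻¹ * (t ^ 2 * x c) * t⁻¹ := by rw [this]
      _ = _ := by group
  have hWA : ∀ (s : Fˣ) (v : F), W s * x v * (W s)⁻¹ = t * x (((s⁻¹ : Fˣ) : F) ^ 2 * v) * t⁻¹ := by
    intro s v
    obtain ⟨n, rfl⟩ := hgen s
    rw [hW, hht, show t * (h ^ n)⁻¹ * x v * (t * (h ^ n)⁻¹)⁻¹ = t * ((h ^ n)⁻¹ * x v * h ^ n) * t⁻¹ by group, hpow']
  have hf : ∀ r ∈ ({g : FreeGroup (Bool × F) | ∃ (b : Bool) (c d : F), g = FreeGroup.of (b, c) * FreeGroup.of (b, d) * (FreeGroup.of (b, c + d))⁻¹} ∪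
          {g | ∃ (b : Bool) (c d : F), c ≠ 0 ∧
            g = (FreeGroup.of (b, c) * FreeGroup.of (!b, -c⁻¹) * FreeGroup.of (b, c)) * FreeGroup.of (b, d) *
                  (FreeGroup.of (b, c) * FreeGroup.of (!b, -c⁻¹) * FreeGroup.of (b, c))⁻¹ * (FreeGroup.of (!b, -(c⁻¹ ^ 2 * d)))⁻¹}),
      FreeGroup.lift f r = 1 := by
    rintro r (⟨b, c, d, rfl⟩ | ⟨b, c, d, hc, rfl⟩)
    · simp only [map_mul, map_inv, FreeGroup.lift_apply_of, mul_inv_eq_one]
      cases b
      · show t * x (-c) * t⁻¹ * (t * x (-d) * t⁻¹) = t * x (-(c + d)) * t⁻¹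
        rw [neg_add, hadd]; group
      · show x c * x d = x (c + d)
        rw [hadd]
    · simp only [map_mul, map_inv, FreeGroup.lift_apply_of, mul_inv_eq_one]
      cases b
      · show (t * x (-c) * t⁻¹) * x (-c⁻¹) * (t * x (-c) * t⁻¹) * (t * x (-d) * t⁻¹) *
            ((t * x (-c) * t⁻¹) * x (-c⁻¹) * (t * x (-c) * t⁻¹))⁻¹ = x (-(c⁻¹ ^ 2 * d))
        have e1 : (t * x (-c) * t⁻¹) * x (-c⁻¹) * (t * x (-c) * t⁻¹) = t * W (-Units.mk0 c hc) * t⁻¹ := by
          calc (t * x (-c) * t⁻¹) * x (-c⁻¹) * (t * x (-c) * t⁻¹)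
              = t * (x (-c) * (t⁻¹ * x (-c⁻¹) * t) * x (-c)) * t⁻¹ := by group
            _ = _ := by
              rw [ht2]
              simp only [W, inv_neg, Units.val_neg, Units.val_mk0, Units.val_inv_eq_inv_val]
              group
        rw [e1, show t * W (-Units.mk0 c hc) * t⁻¹ * (t * x (-d) * t⁻¹) * (t * W (-Units.mk0 c hc) * t⁻¹)⁻¹ =
          t * (W (-Units.mk0 c hc) * x (-d) * (W (-Units.mk0 c hc))⁻¹) * t⁻¹ by group, hWA]
        simp only [inv_neg, Units.val_neg, Units.val_inv_eq_inv_val, Units.val_mk0]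
        calc t * (t * x ((-c⁻¹) ^ 2 * -d) * t⁻¹) * t⁻¹ = (t ^ 2 * x ((-c⁻¹) ^ 2 * -d)) * (t ^ 2)⁻¹ := by rw [pow_two t]; group
          _ = _ := by rw [(hz _).eq, mul_inv_cancel_right, neg_sq, mul_neg]
      · show x c * (t * x (-(-c⁻¹)) * t⁻¹) * x c * x d * (x c * (t * x (-(-c⁻¹)) * t⁻¹) * x c)⁻¹ =
            t * x (-(-(c⁻¹ ^ 2 * d))) * t⁻¹
        have e1 : x c * (t * x (-(-c⁻¹)) * t⁻¹) * x c = W (Units.mk0 c hc) := by
          simp only [W, neg_neg, Units.val_inv_eq_inv_val, Units.val_mk0]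
          group
        rw [e1, hWA, neg_neg, Units.val_inv_eq_inv_val, Units.val_mk0]
  refine ⟨(PresentedGroup.toGroup hf).comp e.symm.toMonoidHom, ?_⟩
  have eX : ∀ c, e.symm (X' c) = PresentedGroup.of (true, c) := fun c => by
    rw [MulEquiv.symm_apply_eq]
    exact Subtype.ext (he1 c).symm
  have eY : ∀ c, e.symm (Y' c) = PresentedGroup.of (false, c) := fun c => by
    rw [MulEquiv.symm_apply_eq]
    exact Subtype.ext (he2 c).symm
  set Φ := (PresentedGroup.toGroup hf).comp e.symm.toMonoidHom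
  have hX : ∀ c, Φ (X' c) = x c := fun c => by
    show PresentedGroup.toGroup hf (e.symm (X' c)) = _
    rw [eX, PresentedGroup.toGroup.of]
    rfl
  have hY : ∀ c, Φ (Y' c) = t * x (-c) * t⁻¹ := fun c => by
    show PresentedGroup.toGroup hf (e.symm (Y' c)) = _
    rw [eY, PresentedGroup.toGroup.of]
    rfl
  have hT : Φ T' = t := by
    have h1 : (T' : Matrix.SpecialLinearGroup (Fin 2) F) = X' 1 * Y' (-1) * X' 1 := by
      refine Matrix.SpecialLinearGroup.ext _ _ fun i j => ?_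
      try simp only [Matrix.SpecialLinearGroup.coe_mul]
      fin_cases i <;> fin_cases j <;> simp [Matrix.SpecialLinearGroup.coe_mul, T', X', Y', Matrix.mul_apply, Fin.sum_univ_two]
    rw [h1, map_mul, map_mul, hX, hY, neg_neg]
    conv_rhs => rw [← h8]
    group
  refine ⟨hX, hT, ?_⟩
  have h1 := congrArg Φ (W'_eq ω)
  rw [map_mul, map_mul, map_mul, map_mul, map_mul, map_inv, hX, hX, hT, h9] at h1
  exact (mul_right_cancel h1).symm

omit [Fact p.Prime] [Algebra (ZMod p) F] in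
theorem center_eq_sq {z : Matrix.SpecialLinearGroup (Fin 2) F} (hz : z ∈ Subgroup.center (Matrix.SpecialLinearGroup (Fin 2) F)) :
    z = 1 ∨ z = T' ^ 2 := by
  obtain ⟨r, hr, hrz⟩ := Matrix.SpecialLinearGroup.mem_center_iff.1 hz
  rw [Fintype.card_fin] at hr
  rcases sq_eq_one_iff.1 hr with h | h <;> subst h
  · left
    apply Subtype.ext
    rw [← hrz, map_one]
    rfl
  · right
    rw [T'_sq]
    refine Matrix.SpecialLinearGroup.ext _ _ fun i j => ?_
    try simp only [Matrix.SpecialLinearGroup.coe_mul]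
    rw [← hrz]
    fin_cases i <;> fin_cases j <;> simp [Matrix.SpecialLinearGroup.coe_mul, H']

end Cfsg.Agent.Lib.SLTwoPres.Core
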