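import Mathlib

/-!
# Parameters for short presentations of `SL₂`
-/

set_option autoImplicit false

namespace Cfsg.Agent.Lib.SLTwoPres.Params

open Polynomial

universe u

variable {F : Type u} [Field F] [Fintype F] {p : ℕ} [Fact p.Prime] [Algebra (ZMod p) F]

/-- An element outside all proper subfields generates. -/
theorem exists_aeval (k : ℕ) (hk : Fintype.card F = p ^ k) (a : F)
    (hout : ∀ e, 1 ≤ e → 2 * e ≤ k → a ^ p ^ e ≠ a) (c : F) : ∃ P : (ZMod p)[X], aeval a P = c := by
  classical
  haveI : Finite F := Finite.of_fintype F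
  haveI : Module.Finite (ZMod p) F := Module.Finite.of_finite
  set L := IntermediateField.adjoin (ZMod p) ({a} : Set F) with hL
  haveI : Fintype L := Fintype.ofFinite L
  have hLcard : Fintype.card L = p ^ Module.finrank (ZMod p) L := by
    rw [Module.card_eq_pow_finrank (K := ZMod p), ZMod.card]
  have hFcard : Fintype.card F = p ^ Module.finrank (ZMod p) F := by
    rw [Module.card_eq_pow_finrank (K := ZMod p), ZMod.card]
  have hkk : Module.finrank (ZMod p) F = k :=
    Nat.pow_right_injective (Fact.out : p.Prime).two_le (hFcard.symm.trans hk)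
  have hmul := Module.finrank_mul_finrank (ZMod p) L F
  rw [hkk] at hmul
  have hLk : Module.finrank L F = 1 := by
    by_contra hne
    have h2 : 2 ≤ Module.finrank L F := by
      have : 0 < Module.finrank L F := Module.finrank_pos
      omega
    have he : 2 * Module.finrank (ZMod p) L ≤ k := by
      rw [← hmul, mul_comm]
      exact Nat.mul_le_mul_left _ h2
    refine hout _ Module.finrank_pos he ?_
    have h := congrArg Subtype.val (FiniteField.pow_card (⟨a, IntermediateField.mem_adjoin_simple_self (ZMod p) a⟩ : L))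
    rw [hLcard] at h
    exact h
  have htop : L = ⊤ := IntermediateField.finrank_eq_one_iff_eq_top.1 hLk
  have hc : c ∈ L.toSubalgebra := by rw [htop]; trivial
  rw [hL, IntermediateField.adjoin_simple_toSubalgebra_of_isAlgebraic (Algebra.IsAlgebraic.isAlgebraic a),
    Algebra.adjoin_singleton_eq_range_aeval] at hc
  obtain ⟨P, hP⟩ := hc
  exact ⟨P, hP⟩

omit [Fact p.Prime] [Algebra (ZMod p) F] in
/-- A square `a` with `a + 1` a square outside all proper subfields. -/
theorem exists_square (hp : p.Prime) (hp2 : p ≠ 2) [CharP F p] (k : ℕ) (hk : Fintype.card F = p ^ k) (hk3 : 3 ≤ k) :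
    ∃ a : F, a ≠ 0 ∧ a + 1 ≠ 0 ∧ IsSquare a ∧ IsSquare (a + 1) ∧ ∀ e, 1 ≤ e → 2 * e ≤ k → a ^ p ^ e ≠ a := by
  classical
  haveI := Fact.mk hp
  have h2 : (2 : F) ≠ 0 := by
    intro h
    have := (CharP.cast_eq_zero_iff F p 2).1 (by exact_mod_cast h)
    exact hp2 ((Nat.prime_dvd_prime_iff_eq hp Nat.prime_two).1 this)
  let A : F → F := fun z => ((z - z⁻¹) / 2) ^ 2
  let bad : Finset F := Finset.univ.filter fun z => z ≠ 0 ∧ ∃ e ∈ Finset.Icc 1 (k / 2), A z ^ p ^ e = A z
  have hmem : ∀ z, z ∈ bad ↔ z ≠ 0 ∧ ∃ e ∈ Finset.Icc 1 (k / 2), A z ^ p ^ e = A z := fun z => by simp [bad]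
  have hbad : bad.card ≤ ∑ e ∈ Finset.Icc 1 (k / 2), 4 * p ^ e := by
    refine (Finset.card_le_card (t := (Finset.Icc 1 (k / 2)).biUnion fun e =>
      ((X ^ 4 + C 1) ^ p ^ e - (X ^ 4 + C 1) * X ^ (2 * (p ^ e - 1)) : F[X]).roots.toFinset) ?_).trans
      (Finset.card_biUnion_le.trans (Finset.sum_le_sum fun e he => ?_))
    · intro z hz
      obtain ⟨hz0, e, he, hAz⟩ := (hmem z).1 hz
      refine Finset.mem_biUnion.2 ⟨e, he, ?_⟩
      rw [Multiset.mem_toFinset, mem_roots']
      have hP : 2 ≤ p ^ e := le_trans hp.two_le (Nat.le_self_pow (by have := (Finset.mem_Icc.1 he).1; omega) p)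
      refine ⟨fun h => ?_, ?_⟩
      · have := congrArg (fun Q : F[X] => Q.eval 0) h
        simp [zero_pow (show (2 * (p ^ e - 1)) ≠ 0 by omega)] at this
      · have hdef : A z = (z ^ 4 + 1) / z ^ 2 * (1 / 4) - 1 / 2 := by
          have h4 : (4 : F) ≠ 0 := by
            rw [show (4 : F) = 2 * 2 by norm_num]
            exact mul_ne_zero h2 h2
          simp only [A]
          field_simp
          ring
        have hfix : ∀ c : ℕ, ((c : F)) ^ p ^ e = (c : F) := fun c => by
          clear hP he hAz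
          induction e with
          | zero => rw [pow_zero, pow_one]
          | succ e ih =>
            rw [pow_succ, pow_mul, ih, ← map_natCast (ZMod.castHom (dvd_refl p) F), ← map_pow, ZMod.pow_card]
        have hc : ((z ^ 4 + 1) / z ^ 2) ^ p ^ e = (z ^ 4 + 1) / z ^ 2 := by
          have e1 : (z ^ 4 + 1) / z ^ 2 = (A z * ((4 : ℕ) : F)) + ((2 : ℕ) : F) := by
            simp only [A]
            push_cast
            field_simp
            ring
          rw [e1, add_pow_char_pow, mul_pow, hAz, hfix, hfix]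
        rw [IsRoot, eval_sub, eval_pow, eval_mul, eval_add, eval_pow, eval_pow, eval_X, eval_C, sub_eq_zero]
        rw [div_pow, ← pow_mul, div_eq_div_iff (pow_ne_zero _ hz0) (pow_ne_zero _ hz0)] at hc
        refine mul_right_cancel₀ (pow_ne_zero 2 hz0) (hc.trans ?_)
        rw [mul_assoc, ← pow_add]
        congr 2
        omega
    · refine (Multiset.toFinset_card_le _).trans ((card_roots' _).trans ?_)
      refine (natDegree_sub_le _ _).trans (max_le ?_ ?_)
      · rw [natDegree_pow, natDegree_X_pow_add_C, mul_comm]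
      · refine natDegree_mul_le.trans ?_
        rw [natDegree_X_pow_add_C, natDegree_X_pow]
        have := (Finset.mem_Icc.1 he).1
        have hP : 2 ≤ p ^ e := le_trans hp.two_le (Nat.le_self_pow (by omega) p)
        omega
  have hsum : ∑ e ∈ Finset.Icc 1 (k / 2), 4 * p ^ e < p ^ k - 1 := by
    have hp3 : 3 ≤ p := by have := hp.two_le; omega
    have gb : ∀ m, 1 ≤ m → ∑ e ∈ Finset.Icc 1 m, 4 * p ^ e ≤ 6 * p ^ m := by
      intro m hm
      induction m, hm using Nat.le_induction with
      | base => simp; omega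
      | succ m hm ih =>
        rw [Finset.sum_Icc_succ_top (by omega), pow_succ]
        have : 3 * p ^ m ≤ p * p ^ m := Nat.mul_le_mul_right _ hp3
        rw [mul_comm (p ^ m) p]
        omega
    refine lt_of_le_of_lt (gb _ (by omega)) ?_
    have h1 : p ^ (k / 2) * p ^ 2 ≤ p ^ k := by
      rw [← pow_add]; exact Nat.pow_le_pow_right (by omega) (by omega)
    have h9 : 9 * p ^ (k / 2) ≤ p ^ k := by
      refine le_trans ?_ h1
      rw [mul_comm]
      exact Nat.mul_le_mul_left _ (by nlinarith)
    have : 0 < p ^ (k / 2) := pow_pos hp.pos _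
    omega
  obtain ⟨z, hz⟩ : ∃ z : Fˣ, (z : F) ∉ bad := by
    by_contra h
    push Not at h
    have : Fintype.card Fˣ ≤ bad.card := by
      rw [← Finset.card_univ]
      exact Finset.card_le_card_of_injOn (fun z : Fˣ => (z : F)) (fun z _ => h z) (fun _ _ _ _ e => Units.ext e)
    rw [Fintype.card_units, hk] at this
    omega
  have hgood : ∀ e, 1 ≤ e → 2 * e ≤ k → A z ^ p ^ e ≠ A z := fun e he1 he2 h =>
    hz ((hmem _).2 ⟨z.ne_zero, e, Finset.mem_Icc.2 ⟨he1, by omega⟩, h⟩)
  have hA1 : A z + 1 = (((z : F) + (z : F)⁻¹) / 2) ^ 2 := by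
    have : (z : F) ≠ 0 := z.ne_zero
    simp only [A]
    field_simp
    ring
  refine ⟨A z, fun h => hgood 1 le_rfl (by omega) ?_, fun h => hgood 1 le_rfl (by omega) ?_, ⟨_, sq _⟩,
    hA1 ▸ ⟨_, sq _⟩, hgood⟩
  · rw [h, zero_pow (pow_ne_zero _ hp.ne_zero)]
  · rw [eq_neg_of_add_eq_zero_left h, pow_one, Odd.neg_one_pow (hp.odd_of_ne_two hp2)]

end Cfsg.Agent.Lib.SLTwoPres.Params
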