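import Cfsg.Agent.Lib.SLTwoPres.Core
import Cfsg.Agent.Lib.SLTwoPres.Params

/-!
# Short presentations of `SL₂(q)` and `PSL₂(q)`
-/

set_option autoImplicit false

namespace Cfsg.Agent.Lib.SLTwoPres.Main

open Polynomial
open Cfsg.Agent.Lib.SLTwoPres.Borel Cfsg.Agent.Lib.SLTwoPres.Core

universe u

variable {p : ℕ} [Fact p.Prime] {F : Type u} [Field F] [Algebra (ZMod p) F]

/-- Generator images in `SL₂`. -/
def fM (ω : Fˣ) : Fin 3 → Matrix.SpecialLinearGroup (Fin 2) F := ![X' 1, H' ω, T']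

/-- `u`. -/
def U : FreeGroup (Fin 3) := FreeGroup.of 0

/-- `h`. -/
def H : FreeGroup (Fin 3) := FreeGroup.of 1

/-- `t`. -/
def T : FreeGroup (Fin 3) := FreeGroup.of 2

/-- `h u h⁻¹ = P`. -/
noncomputable def rAct (i : ℕ) (P : (ZMod p)[X]) : FreeGroup (Fin 3) := H * U * H⁻¹ * (pev U H i P)⁻¹

/-- `[u, u^a]`. -/
def rComm (i : ℕ) : FreeGroup (Fin 3) := U * (H ^ i * U * (H ^ i)⁻¹) * U⁻¹ * (H ^ i * U * (H ^ i)⁻¹)⁻¹

/-- `u^b = u u^a`. -/
def rTri (i j : ℕ) : FreeGroup (Fin 3) := H ^ j * U * (H ^ j)⁻¹ * (U * (H ^ i * U * (H ^ i)⁻¹))⁻¹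

/-- The minimal polynomial relation. -/
noncomputable def rMin (i : ℕ) (P : (ZMod p)[X]) (N : ℕ) : FreeGroup (Fin 3) := pev U H i P * (H ^ N)⁻¹

/-- `h^t = h⁻¹`. -/
def rWeyl : FreeGroup (Fin 3) := T * H * T⁻¹ * H

/-- `t² = h^e`. -/
def rSq (e : ℕ) : FreeGroup (Fin 3) := T ^ 2 * (H ^ e)⁻¹

/-- `w(1) = t`. -/
def rOne : FreeGroup (Fin 3) := U * T * U * T⁻¹ * U * T⁻¹

/-- `w(ω) = h t`. -/
noncomputable def rGen (i : ℕ) (P P' : (ZMod p)[X]) : FreeGroup (Fin 3) :=
  pev U H i P * T * pev U H i P' * T⁻¹ * pev U H i P * T⁻¹ * H⁻¹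

theorem map_U {Q : Type*} [Group Q] (φ : Matrix.SpecialLinearGroup (Fin 2) F →* Q) (ω : Fˣ) :
    FreeGroup.lift (fun a => φ (fM ω a)) U = φ (X' 1) := by rw [U, FreeGroup.lift_apply_of]; rfl

omit [Algebra (ZMod p) F] in
theorem lift_comp {Q : Type*} [Group Q] (φ : Matrix.SpecialLinearGroup (Fin 2) F →* Q) (ω : Fˣ) (r : FreeGroup (Fin 3))
    (h : FreeGroup.lift (fM ω) r = 1) : FreeGroup.lift (fun a => φ (fM ω a)) r = 1 := by
  have : FreeGroup.lift (fun a => φ (fM ω a)) = φ.comp (FreeGroup.lift (fM ω)) := by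
    ext a
    simp
  rw [this, MonoidHom.comp_apply, h, map_one]

section check

variable (ω : Fˣ) (i : ℕ)

theorem liftU : FreeGroup.lift (fM ω) U = X' (1 : F) := by rw [U, FreeGroup.lift_apply_of]; rfl

theorem liftH : FreeGroup.lift (fM ω) H = H' ω := by rw [H, FreeGroup.lift_apply_of]; rfl

theorem liftT : FreeGroup.lift (fM ω) T = (T' : Matrix.SpecialLinearGroup (Fin 2) F) := by
  rw [T, FreeGroup.lift_apply_of]; rfl

theorem lift_pev (P : (ZMod p)[X]) :
    FreeGroup.lift (fM ω) (pev U H i P) = X' (aeval ((ω : F) ^ (2 * i)) P) := by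
  rw [map_pev, liftU, liftH, pev_matrix]

theorem conj_X' (m : ℕ) : H' ω ^ m * X' (1 : F) * (H' ω ^ m)⁻¹ = X' ((ω : F) ^ (2 * m)) := by
  rw [H'_pow, H'_conj, mul_one, Units.val_pow_eq_pow_val, ← pow_mul, mul_comm m 2]

include p in
theorem ok_pow : FreeGroup.lift (fM ω) (U ^ p) = 1 := by
  rw [map_pow, liftU, X'_pow, ← map_natCast (algebraMap (ZMod p) F), ZMod.natCast_self, map_zero, zero_mul, X'_zero]

theorem ok_act (P : (ZMod p)[X]) (h : aeval ((ω : F) ^ (2 * i)) P = (ω : F) ^ 2) :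
    FreeGroup.lift (fM ω) (rAct i P) = 1 := by
  rw [rAct, map_mul, map_mul, map_mul, map_inv, map_inv, lift_pev, h, liftU, liftH, H'_conj, mul_one, mul_inv_cancel]

theorem ok_comm : FreeGroup.lift (fM ω) (rComm i) = 1 := by
  rw [rComm]
  simp only [map_mul, map_inv, map_pow, liftU, liftH, conj_X']
  rw [← X'_add, add_comm, X'_add, mul_inv_cancel_right, mul_inv_cancel]

theorem ok_tri (j : ℕ) (h : (ω : F) ^ (2 * j) = 1 + (ω : F) ^ (2 * i)) : FreeGroup.lift (fM ω) (rTri i j) = 1 := by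
  rw [rTri]
  simp only [map_mul, map_inv, map_pow, liftU, liftH, conj_X']
  rw [h, ← X'_add, mul_inv_cancel]

theorem ok_min (N : ℕ) (hN : ω ^ N = 1) :
    FreeGroup.lift (fM ω) (rMin i (minpoly (ZMod p) ((ω : F) ^ (2 * i))) N) = 1 := by
  rw [rMin, map_mul, map_inv, map_pow, lift_pev, minpoly.aeval, liftH, H'_pow, hN, H'_one, X'_zero, inv_one, one_mul]

theorem ok_weyl : FreeGroup.lift (fM ω) rWeyl = 1 := by
  rw [rWeyl]
  simp only [map_mul, map_inv, liftT, liftH]
  exact T'_H' ω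

theorem ok_one : FreeGroup.lift (fM ω) rOne = 1 := by
  rw [rOne]
  simp only [map_mul, map_inv, liftT, liftU]
  exact R8_matrix

theorem ok_gen (P P' : (ZMod p)[X]) (h : aeval ((ω : F) ^ (2 * i)) P = (ω : F))
    (h' : aeval ((ω : F) ^ (2 * i)) P' = ((ω⁻¹ : Fˣ) : F)) : FreeGroup.lift (fM ω) (rGen i P P') = 1 := by
  rw [rGen]
  simp only [map_mul, map_inv, liftT, liftH, lift_pev, h, h']
  rw [W'_eq, mul_inv_cancel_right, mul_inv_cancel]

theorem ok_sq (e : ℕ) (he : ω ^ e = -1) : FreeGroup.lift (fM ω) (rSq e) = 1 := by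
  rw [rSq, map_mul, map_inv, map_pow, map_pow, liftT, liftH, H'_pow, he, T'_sq, mul_inv_cancel]

end check

/-- Relators give a presentation. -/
theorem presents [Finite F] {Q : Type*} [Group Q] (π : Matrix.SpecialLinearGroup (Fin 2) F →* Q)
    (hπ : Function.Surjective π) (ω : Fˣ) (rels : Finset (FreeGroup (Fin 3)))
    (hrels : ∀ r ∈ rels, FreeGroup.lift (fun a => π (fM ω a)) r = 1)
    (hgen : ∀ s : Fˣ, ∃ n : ℕ, ω ^ n = s) (i : ℕ) (hsurj : ∀ c : F, ∃ P : (ZMod p)[X], aeval ((ω : F) ^ (2 * i)) P = c)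
    (key : ∀ u h t : PresentedGroup (↑rels : Set (FreeGroup (Fin 3))),
      (∀ r ∈ rels, FreeGroup.lift ![u, h, t] r = 1) →
      (∀ z ∈ π.ker, z = 1 ∨ (z = T' ^ 2 ∧ t ^ 2 = 1)) ∧
      ∃ x : F → PresentedGroup (↑rels : Set (FreeGroup (Fin 3))),
        (∀ c d, x (c + d) = x c * x d) ∧ (∀ c, h * x c * h⁻¹ = x ((ω : F) ^ 2 * c)) ∧
        (∀ P : (ZMod p)[X], x (aeval ((ω : F) ^ (2 * i)) P) = pev u h i P) ∧ x 1 = u ∧
        t * h * t⁻¹ = h⁻¹ ∧ (∀ c, Commute (t ^ 2) (x c)) ∧ x 1 * t * x 1 * t⁻¹ * x 1 = t ∧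
        x (ω : F) * t * x ((ω⁻¹ : Fˣ) : F) * t⁻¹ * x (ω : F) = h * t) :
    Nonempty (PresentedGroup (↑rels : Set (FreeGroup (Fin 3))) ≃* Q) := by
  classical
  set G := PresentedGroup (↑rels : Set (FreeGroup (Fin 3)))
  let gen : Fin 3 → G := PresentedGroup.of
  have hvec : ![gen 0, gen 1, gen 2] = gen := by
    funext a
    fin_cases a <;> rfl
  have hone : ∀ r ∈ rels, FreeGroup.lift ![gen 0, gen 1, gen 2] r = 1 := fun r hr => by
    rw [hvec]
    have e : FreeGroup.lift gen = PresentedGroup.mk (↑rels : Set (FreeGroup (Fin 3))) := by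
      ext a
      rw [FreeGroup.lift_apply_of]
      rfl
    rw [e]
    exact PresentedGroup.one_of_mem hr
  obtain ⟨hker, x, hadd, hact, hxP, hx1, hth, hz, h8, h9⟩ := key (gen 0) (gen 1) (gen 2) hone
  obtain ⟨Φ, hΦX, hΦT, hΦH⟩ := exists_lift ω hgen x (gen 1) (gen 2) hadd hact hth hz h8 h9
  let Ψ : G →* Q := PresentedGroup.toGroup (f := fun a => π (fM ω a)) (rels := (↑rels : Set (FreeGroup (Fin 3)))) hrels
  have hΨ : ∀ a, Ψ (gen a) = π (fM ω a) := fun a => PresentedGroup.toGroup.of hrels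
  have hkerle : ∀ z ∈ π.ker, Φ z = 1 := fun z hz => by
    rcases hker z hz with rfl | ⟨rfl, ht⟩
    · exact map_one Φ
    · rw [map_pow, hΦT, ht]
  have hfact : ∀ z z', π z = π z' → Φ z = Φ z' := fun z z' h => by
    have := hkerle (z⁻¹ * z') (by rw [MonoidHom.mem_ker, map_mul, map_inv, h, inv_mul_cancel])
    rw [map_mul, map_inv] at this
    exact inv_mul_eq_one.1 this
  choose sec hsec using hπ
  let Φ' : Q →* G :=
    { toFun := fun y => Φ (sec y)
      map_one' := (hfact _ 1 (by rw [hsec, map_one])).trans (map_one Φ)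
      map_mul' := fun a b => (hfact _ (sec a * sec b) (by rw [map_mul, hsec, hsec, hsec])).trans (map_mul Φ _ _) }
  have hΦ' : ∀ z, Φ' (π z) = Φ z := fun z => hfact _ _ (hsec _)
  have h1 : Φ'.comp Ψ = MonoidHom.id G := by
    refine PresentedGroup.ext fun a => ?_
    show Φ' (Ψ (gen a)) = gen a
    rw [hΨ, hΦ']
    fin_cases a
    · show Φ (X' 1) = gen 0
      rw [hΦX, hx1]
    · exact hΦH
    · exact hΦT
  have h2 : ∀ z, Ψ (Φ z) = π z := by
    obtain ⟨e, he1, he2⟩ := Cfsg.Agent.S2426.result (K := F)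
    have hX : ∀ c, Ψ (Φ (X' c)) = π (X' c) := fun c => by
      obtain ⟨P, rfl⟩ := hsurj c
      rw [hΦX, hxP, map_pev, hΨ, hΨ, ← map_pev π]
      exact congrArg π (pev_matrix ω i P)
    have hT : Ψ (Φ (T' : Matrix.SpecialLinearGroup (Fin 2) F)) = π T' := by
      rw [hΦT, hΨ]
      rfl
    have hY : ∀ c, Ψ (Φ (Y' c)) = π (Y' c) := fun c => by
      rw [show Y' c = T' * X' (-c) * T'⁻¹ by rw [T'_conj, neg_neg]]
      simp only [map_mul, map_inv, hX, hT]
    have : (Ψ.comp Φ).comp e.toMonoidHom = π.comp e.toMonoidHom := by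
      refine PresentedGroup.ext fun a => ?_
      obtain ⟨b, c⟩ := a
      show Ψ (Φ (e (PresentedGroup.of (b, c)))) = π (e (PresentedGroup.of (b, c)))
      cases b
      · rw [show e (PresentedGroup.of (false, c)) = Y' c from Subtype.ext (he2 c)]
        exact hY c
      · rw [show e (PresentedGroup.of (true, c)) = X' c from Subtype.ext (he1 c)]
        exact hX c
    intro z
    obtain ⟨y, rfl⟩ := e.surjective z
    exact DFunLike.congr_fun this y
  refine ⟨MonoidHom.toMulEquiv Ψ Φ' h1 (MonoidHom.ext fun y => ?_)⟩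
  show Ψ (Φ (sec y)) = y
  rw [h2, hsec]

/-- Readings of the relators in a group. -/
theorem read {G : Type*} [Group G] (u h t : G) (i j N e : ℕ) (P P' : (ZMod p)[X]) :
    (FreeGroup.lift ![u, h, t] U = u) ∧ (FreeGroup.lift ![u, h, t] (U ^ p) = 1 → u ^ p = 1) ∧
    (FreeGroup.lift ![u, h, t] (rAct i P) = 1 → h * u * h⁻¹ = pev u h i P) ∧
    (FreeGroup.lift ![u, h, t] (rComm i) = 1 → Commute u (h ^ i * u * (h ^ i)⁻¹)) ∧
    (FreeGroup.lift ![u, h, t] (rTri i j) = 1 → h ^ j * u * (h ^ j)⁻¹ = u * (h ^ i * u * (h ^ i)⁻¹)) ∧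
    (FreeGroup.lift ![u, h, t] (rMin i P N) = 1 → pev u h i P = h ^ N) ∧
    (FreeGroup.lift ![u, h, t] rWeyl = 1 → t * h * t⁻¹ = h⁻¹) ∧
    (FreeGroup.lift ![u, h, t] (rSq e) = 1 → t ^ 2 = h ^ e) ∧
    (FreeGroup.lift ![u, h, t] rOne = 1 → u * t * u * t⁻¹ * u = t) ∧
    (FreeGroup.lift ![u, h, t] (rGen i P P') = 1 →
      pev u h i P * t * pev u h i P' * t⁻¹ * pev u h i P = h * t) := by
  have hU : FreeGroup.lift ![u, h, t] U = u := by rw [U, FreeGroup.lift_apply_of]; rfl
  have hH : FreeGroup.lift ![u, h, t] H = h := by rw [H, FreeGroup.lift_apply_of]; rfl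
  have hT : FreeGroup.lift ![u, h, t] T = t := by rw [T, FreeGroup.lift_apply_of]; rfl
  refine ⟨hU, ?_, ?_, ?_, ?_, ?_, ?_, ?_, ?_, ?_⟩ <;> intro hr
  · rwa [map_pow, hU] at hr
  · rw [rAct, map_mul, map_mul, map_mul, map_inv, map_inv, map_pev, hU, hH] at hr
    exact mul_inv_eq_one.1 hr
  · simp only [rComm, map_mul, map_inv, map_pow, hU, hH] at hr
    exact mul_inv_eq_iff_eq_mul.1 (mul_inv_eq_one.1 hr)
  · simp only [rTri, map_mul, map_inv, map_pow, hU, hH] at hr
    exact mul_inv_eq_one.1 hr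
  · rw [rMin, map_mul, map_inv, map_pow, map_pev, hU, hH] at hr
    exact mul_inv_eq_one.1 hr
  · simp only [rWeyl, map_mul, map_inv, hT, hH] at hr
    exact eq_inv_of_mul_eq_one_left hr
  · rw [rSq, map_mul, map_inv, map_pow, map_pow, hT, hH] at hr
    exact mul_inv_eq_one.1 hr
  · simp only [rOne, map_mul, map_inv, hU, hT] at hr
    exact mul_inv_eq_one.1 hr
  · simp only [rGen, map_mul, map_inv, map_pev, hU, hH, hT] at hr
    have h1 := mul_inv_eq_one.1 hr
    rw [mul_inv_eq_iff_eq_mul] at h1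
    exact h1

section borel

variable [Fintype F]

theorem card_eq (ω : Fˣ) (hω : orderOf ω = Fintype.card F - 1) (s : Fˣ) : ∃ n : ℕ, ω ^ n = s := by
  classical
  have h : Subgroup.zpowers ω = ⊤ := Subgroup.eq_top_of_card_eq _ (by
    rw [Nat.card_zpowers, hω, Nat.card_eq_fintype_card, Fintype.card_units])
  have hs : s ∈ Subgroup.zpowers ω := h ▸ Subgroup.mem_top s
  exact (mem_powers_iff_mem_zpowers).2 hs

/-- The Borel part of the relators (five relators; four or fewer when `q` is prime). -/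
theorem borel_rels (hp2 : p ≠ 2) (k : ℕ) (hk : Fintype.card F = p ^ k) (ω : Fˣ) (hω : orderOf ω = Fintype.card F - 1) :
    ∃ (i : ℕ) (B : Finset (FreeGroup (Fin 3))), B.card ≤ 5 ∧
      (∀ c : F, ∃ P : (ZMod p)[X], aeval ((ω : F) ^ (2 * i)) P = c) ∧
      (∀ r ∈ B, FreeGroup.lift (fM ω) r = 1) ∧
      ∀ {G : Type} [Group G] (u h t : G), (∀ r ∈ B, FreeGroup.lift ![u, h, t] r = 1) →
        ∃ x : F → G, (∀ c d, x (c + d) = x c * x d) ∧ (∀ c, h * x c * h⁻¹ = x ((ω : F) ^ 2 * c)) ∧
          (∀ P : (ZMod p)[X], x (aeval ((ω : F) ^ (2 * i)) P) = pev u h i P) ∧ x 1 = u := by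
  classical
  have hp : p.Prime := Fact.out
  haveI : CharP F p := charP_of_injective_algebraMap (algebraMap (ZMod p) F).injective p
  have hk1 : 1 ≤ k := by
    rcases Nat.eq_zero_or_pos k with h | h
    · rw [h, pow_zero] at hk
      exact absurd hk (Fintype.one_lt_card (α := F)).ne'
    · exact h
  rcases eq_or_lt_of_le hk1 with h1 | h1
  · -- prime field
    subst h1
    rw [pow_one] at hk
    have hsurj : ∀ c : F, ∃ P : (ZMod p)[X], aeval ((ω : F) ^ (2 * 0)) P = c := by
      intro c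
      have hb : Function.Bijective (algebraMap (ZMod p) F) := (Fintype.bijective_iff_injective_and_card _).2
        ⟨(algebraMap (ZMod p) F).injective, by rw [ZMod.card, hk]⟩
      obtain ⟨d, rfl⟩ := hb.2 c
      exact ⟨C d, aeval_C _ _⟩
    obtain ⟨Pν, hPν⟩ := hsurj ((ω : F) ^ 2)
    refine ⟨0, {U ^ p, rAct 0 Pν}, le_trans Finset.card_le_two (by omega), hsurj, ?_, ?_⟩
    · intro r hr
      simp only [Finset.mem_insert, Finset.mem_singleton] at hr
      rcases hr with rfl | rfl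
      · exact ok_pow ω
      · exact ok_act ω 0 Pν hPν
    · intro G _ u h t hr
      obtain ⟨-, r1, r2, -⟩ := read (p := p) u h t 0 0 0 0 Pν Pν
      have hu := r1 (hr _ (by simp))
      refine exists_hom u h 0 ((ω : F) ^ (2 * 0)) ((ω : F) ^ 2) hsurj hu (fun k => by simp) ?_ Pν hPν (r2 (hr _ (by simp)))
      rw [show ((ω : F) ^ (2 * 0)) = algebraMap (ZMod p) F 1 by simp, minpoly.eq_X_sub_C, pev, natDegree_X_sub_C]
      simp only [zero_mul, pow_zero, one_mul, inv_one, mul_one, List.range_succ, List.range_zero, List.nil_append,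
        List.singleton_append, List.map_cons, List.map_nil, List.prod_cons, List.prod_nil, coeff_sub, coeff_X_zero,
        coeff_C_zero, coeff_X_one, coeff_C_succ, zero_sub, sub_zero]
      rw [← pow_add, ← orderOf_dvd_iff_pow_eq_one]
      refine dvd_trans (orderOf_dvd_of_pow_eq_one hu) ?_
      rw [← CharP.cast_eq_zero_iff (ZMod p) p]
      simp
  rcases eq_or_lt_of_le (show 2 ≤ k by omega) with h2 | h2
  · -- `k = 2`
    subst h2
    have hsurj : ∀ c : F, ∃ P : (ZMod p)[X], aeval ((ω : F) ^ (2 * 1)) P = c := by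
      refine Params.exists_aeval 2 hk _ fun e he1 he2 h => ?_
      obtain rfl : e = 1 := by omega
      have h' : ω ^ (2 * p) = ω ^ 2 := Units.ext (by
        rw [Units.val_pow_eq_pow_val, Units.val_pow_eq_pow_val, pow_mul]
        simpa using h)
      rw [pow_eq_pow_iff_modEq, hω, hk] at h'
      have hp2' := hp.two_le
      have h3 := (Nat.modEq_iff_dvd' (show 2 ≤ 2 * p by omega)).1 h'.symm
      have h4 := Nat.le_of_dvd (show 0 < 2 * p - 2 by omega) h3
      have : 3 * p ≤ p ^ 2 := by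
        rw [pow_two]
        exact Nat.mul_le_mul_right _ (by have := hp.two_le; omega)
      omega
    obtain ⟨Pν, hPν⟩ := hsurj ((ω : F) ^ 2)
    set a := (ω : F) ^ (2 * 1)
    refine ⟨1, {U ^ p, rComm 1, rMin 1 (minpoly (ZMod p) a) 0, rAct 1 Pν}, le_trans Finset.card_le_four (by omega), hsurj, ?_, ?_⟩
    · intro r hr
      simp only [Finset.mem_insert, Finset.mem_singleton] at hr
      rcases hr with rfl | rfl | rfl | rfl
      · exact ok_pow ω
      · exact ok_comm ω 1
      · exact ok_min ω 1 0 (pow_zero ω)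
      · exact ok_act ω 1 Pν hPν
    · intro G _ u h t hr
      obtain ⟨-, r1, r2, r3, -, r4, -⟩ := read (p := p) u h t 1 0 0 0 Pν Pν
      obtain ⟨-, -, -, -, -, r4', -⟩ := read (p := p) u h t 1 0 0 0 (minpoly (ZMod p) a) Pν
      have hu := r1 (hr _ (by simp))
      have hc1 := r3 (hr _ (by simp))
      have hm := r4' (hr _ (by simp))
      rw [pow_zero] at hm
      refine exists_hom u h 1 a ((ω : F) ^ 2) hsurj hu ?_ hm Pν hPν (r2 (hr _ (by simp)))
      -- degree two
      have hdeg : (minpoly (ZMod p) a).natDegree ≤ 2 := by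
        refine (minpoly.natDegree_le a).trans (le_of_eq ?_)
        haveI : Module.Finite (ZMod p) F := Module.Finite.of_finite
        refine Nat.pow_right_injective hp.two_le ?_
        show p ^ Module.finrank (ZMod p) F = p ^ 2
        rw [← hk, Module.card_eq_pow_finrank (K := ZMod p) (V := F), ZMod.card]
      let c : ℕ → G := fun m => h ^ (1 * m) * u * (h ^ (1 * m))⁻¹
      have c0 : c 0 = u := by simp [c]
      have c1 : c 1 = h ^ 1 * u * (h ^ 1)⁻¹ := by simp [c]
      have hmon : (minpoly (ZMod p) a).Monic := minpoly.monic (Algebra.IsIntegral.isIntegral a)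
      set V := Subgroup.closure ({c 0, c 1} : Set G)
      have hf : ∀ m, h * c m * h⁻¹ = c (m + 1) := fun m => by
        simp only [c, one_mul]
        rw [pow_succ' h m]
        group
      have hc2 : c 2 ∈ V := by
        rw [pev] at hm
        have hd := minpoly.natDegree_pos (A := ZMod p) (Algebra.IsIntegral.isIntegral a)
        rcases (show (minpoly (ZMod p) a).natDegree = 1 ∨ (minpoly (ZMod p) a).natDegree = 2 by omega) with hn | hn
        · rw [hn] at hm
          simp only [List.range_succ, List.range_zero, List.nil_append, List.singleton_append, List.map_cons, List.map_nil,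
            List.prod_cons, List.prod_nil, mul_one] at hm
          rw [show (minpoly (ZMod p) a).coeff 1 = 1 by rw [← hn]; exact hmon.coeff_natDegree] at hm
          haveI : Fact (1 < p) := ⟨hp.one_lt⟩
          rw [ZMod.val_one, pow_one] at hm
          have e : c 1 = (c 0 ^ ((minpoly (ZMod p) a).coeff 0).val)⁻¹ := eq_inv_of_mul_eq_one_right hm
          rw [← hf 1, e, show h * (c 0 ^ ((minpoly (ZMod p) a).coeff 0).val)⁻¹ * h⁻¹ =
            (h * c 0 ^ ((minpoly (ZMod p) a).coeff 0).val * h⁻¹)⁻¹ by group, conj_pow', hf]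
          exact V.inv_mem (V.pow_mem (Subgroup.subset_closure (Set.mem_insert_of_mem _ rfl)) _)
        · rw [hn] at hm
          simp only [List.range_succ, List.range_zero, List.nil_append, List.singleton_append, List.cons_append,
            List.map_cons, List.map_nil, List.prod_cons, List.prod_nil, mul_one] at hm
          rw [show (minpoly (ZMod p) a).coeff 2 = 1 by rw [← hn]; exact hmon.coeff_natDegree] at hm
          haveI : Fact (1 < p) := ⟨hp.one_lt⟩
          rw [ZMod.val_one, pow_one, ← mul_assoc] at hm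
          have e : c 2 = (c 0 ^ ((minpoly (ZMod p) a).coeff 0).val * c 1 ^ ((minpoly (ZMod p) a).coeff 1).val)⁻¹ :=
            eq_inv_of_mul_eq_one_right (by simpa [c] using hm)
          rw [e]
          exact V.inv_mem (V.mul_mem (V.pow_mem (Subgroup.subset_closure (Set.mem_insert _ _)) _)
            (V.pow_mem (Subgroup.subset_closure (Set.mem_insert_of_mem _ rfl)) _))
      -- all conjugates lie in the closure of the first two
      have hV : ∀ m, c m ∈ V ∧ c (m + 1) ∈ V := by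
        intro m
        induction m with
        | zero => exact ⟨Subgroup.subset_closure (Or.inl rfl), Subgroup.subset_closure (Or.inr rfl)⟩
        | succ m ih =>
          refine ⟨ih.2, ?_⟩
          rw [← hf (m + 1)]
          have hmem : ∀ v ∈ V, h * v * h⁻¹ ∈ V := fun v hv => by
            induction hv using Subgroup.closure_induction with
            | mem v hv =>
              rcases hv with rfl | rfl
              · rw [hf]; exact Subgroup.subset_closure (Or.inr rfl)
              · rw [hf]; exact hc2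
            | one => rw [mul_one, mul_inv_cancel]; exact V.one_mem
            | mul x y _ _ h₁ h₂ => rw [show h * (x * y) * h⁻¹ = (h * x * h⁻¹) * (h * y * h⁻¹) by group]; exact V.mul_mem h₁ h₂
            | inv x _ h₁ => rw [show h * x⁻¹ * h⁻¹ = (h * x * h⁻¹)⁻¹ by group]; exact V.inv_mem h₁
          exact hmem _ ih.2
      intro m
      have key : ∀ v ∈ V, Commute u v := fun v hv => by
        induction hv using Subgroup.closure_induction with
        | mem v hv =>
          rcases hv with rfl | rfl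
          · rw [c0]
          · rw [c1]; exact hc1
        | one => exact Commute.one_right u
        | mul x y _ _ h₁ h₂ => exact h₁.mul_right h₂
        | inv x _ h₁ => exact h₁.inv_right
      exact key _ (hV m).1
  · -- `k ≥ 3`
    obtain ⟨a, ha0, ha1, hsqa, hsqb, hout⟩ := Params.exists_square (F := F) hp hp2 k hk h2
    obtain ⟨r, hr⟩ := hsqa
    obtain ⟨r', hr'⟩ := hsqb
    obtain ⟨i, hi⟩ := card_eq ω hω (Units.mk0 r fun h => ha0 (by rw [hr, h, mul_zero]))
    obtain ⟨j, hj⟩ := card_eq ω hω (Units.mk0 r' fun h => ha1 (by rw [hr', h, mul_zero]))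
    have hai : (ω : F) ^ (2 * i) = a := by
      rw [pow_mul', ← Units.val_pow_eq_pow_val, hi, Units.val_mk0, pow_two, ← hr]
    have hbj : (ω : F) ^ (2 * j) = 1 + (ω : F) ^ (2 * i) := by
      rw [hai, pow_mul', ← Units.val_pow_eq_pow_val, hj, Units.val_mk0, pow_two, ← hr', add_comm]
    have hsurj : ∀ c : F, ∃ P : (ZMod p)[X], aeval ((ω : F) ^ (2 * i)) P = c := by
      rw [hai]
      exact Params.exists_aeval k hk a hout
    obtain ⟨Pν, hPν⟩ := hsurj ((ω : F) ^ 2)
    refine ⟨i, {U ^ p, rComm i, rTri i j, rMin i (minpoly (ZMod p) ((ω : F) ^ (2 * i))) 0, rAct i Pν},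
      Finset.card_le_five, hsurj, ?_, ?_⟩
    · intro r hr
      simp only [Finset.mem_insert, Finset.mem_singleton] at hr
      rcases hr with rfl | rfl | rfl | rfl | rfl
      · exact ok_pow ω
      · exact ok_comm ω i
      · exact ok_tri ω i j hbj
      · exact ok_min ω i 0 (pow_zero ω)
      · exact ok_act ω i Pν hPν
    · intro G _ u h t hr
      obtain ⟨-, r1, r2, r3, r5, -⟩ := read (p := p) u h t i j 0 0 Pν Pν
      obtain ⟨-, -, -, -, -, r4, -⟩ := read (p := p) u h t i j 0 0 (minpoly (ZMod p) ((ω : F) ^ (2 * i))) Pν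
      refine exists_hom u h i _ ((ω : F) ^ 2) hsurj (r1 (hr _ (by simp)))
        (commute_of_triangle (r3 (hr _ (by simp))) (r5 (hr _ (by simp)))) ?_ Pν hPν (r2 (hr _ (by simp)))
      have := r4 (hr _ (by simp))
      rwa [pow_zero] at this

end borel

end Cfsg.Agent.Lib.SLTwoPres.Main
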